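import Cfsg.Agent.CharBasics.Central
import Cfsg.Agent.PLocalBasics.NormalElemAbelian

/-!
# Cosets inside a class, inversion, and a 2-group lemma
-/

set_option autoImplicit false
set_option linter.unusedSectionVars false
set_option linter.style.haveILetI false

namespace CfsgLib.ValueGapFour

variable {G : Type*} [Group G] [Finite G]

theorem card_centralizer_conj {a b : G} (h : IsConj a b) :
    Nat.card (Subgroup.centralizer ({a} : Set G)) = Nat.card (Subgroup.centralizer ({b} : Set G)) := by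
  have h1 : (Subgroup.centralizer ({a} : Set G)).index = (Subgroup.centralizer ({b} : Set G)).index := by
    rw [← CharBasics.card_conjClass, ← CharBasics.card_conjClass]
    exact Nat.card_congr (Equiv.subtypeEquivRight fun x => ⟨fun k => h.symm.trans k, fun k => h.trans k⟩)
  have e1 := (Subgroup.centralizer ({a} : Set G)).card_mul_index
  rw [← (Subgroup.centralizer ({b} : Set G)).card_mul_index, h1] at e1
  exact Nat.eq_of_mul_eq_mul_right (Nat.pos_of_ne_zero Subgroup.index_ne_zero_of_finite) e1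

/-- A coset of a normal subgroup of abelian-centralised image is one class. -/
theorem coset_full {H : Type*} [Group H] (f : G →* H) (t : G) (hcomm : ∀ x, f x * f t = f t * f x)
    (hC : Nat.card (Subgroup.centralizer ({t} : Set G)) ≤ 4) (hcard : 4 * Nat.card f.ker ≤ Nat.card G)
    {k : G} (hk : k ∈ f.ker) : IsConj t (t * k) := by
  classical
  haveI := Fintype.ofFinite G
  set φ : G → G := fun x => t⁻¹ * (x * t * x⁻¹) with hφ
  set K := Finset.univ.filter fun y : G => y ∈ f.ker with hK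
  have hsub : Finset.univ.image φ ⊆ K := by
    intro y hy
    obtain ⟨x, -, rfl⟩ := Finset.mem_image.1 hy
    refine Finset.mem_filter.2 ⟨Finset.mem_univ _, ?_⟩
    rw [MonoidHom.mem_ker, map_mul, map_mul, map_mul, map_inv, map_inv, hcomm x]
    group
  have hfib : ∀ y ∈ Finset.univ.image φ, (Finset.univ.filter fun x => φ x = y).card ≤ 4 := by
    intro y hy
    obtain ⟨x0, -, rfl⟩ := Finset.mem_image.1 hy
    refine le_trans ?_ hC
    rw [Nat.card_eq_fintype_card, Fintype.card_subtype]
    refine Finset.card_le_card_of_injOn (fun x => x0⁻¹ * x) (fun x hx => ?_) fun a _ b _ e => mul_left_cancel e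
    have hx' : x * t * x⁻¹ = x0 * t * x0⁻¹ := mul_left_cancel (Finset.mem_filter.1 hx).2
    refine Finset.mem_filter.2 ⟨Finset.mem_univ _, Subgroup.mem_centralizer_singleton_iff.2 ?_⟩
    calc x0⁻¹ * x * t = x0⁻¹ * (x * t * x⁻¹) * x := by group
      _ = t * (x0⁻¹ * x) := by rw [hx']; group
  have h1 := Finset.card_le_mul_card_image (f := φ) Finset.univ 4 hfib
  have hKc : K.card = Nat.card f.ker := by rw [Nat.card_eq_fintype_card, Fintype.card_subtype]
  rw [Finset.card_univ, ← Nat.card_eq_fintype_card] at h1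
  have heq : Finset.univ.image φ = K := Finset.eq_of_subset_of_card_le hsub (by omega)
  have hkK : k ∈ K := Finset.mem_filter.2 ⟨Finset.mem_univ _, hk⟩
  rw [← heq] at hkK
  obtain ⟨x, -, hx⟩ := Finset.mem_image.1 hkK
  exact isConj_iff.2 ⟨x, by rw [← hx, hφ]; group⟩

/-- A fixed point free involution inverts. -/
theorem inverts (W : Subgroup G) (t : G) (hnorm : ∀ w ∈ W, t * w * t⁻¹ ∈ W)
    (hsq : ∀ w ∈ W, t * t * w = w * (t * t)) (hfix : ∀ w ∈ W, t * w = w * t → w = 1) :
    ∀ w ∈ W, t * w * t⁻¹ = w⁻¹ := by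
  let ψ : ↥W → ↥W := fun g => g⁻¹ * ⟨t * (g : G) * t⁻¹, hnorm _ g.2⟩
  have hinj : Function.Injective ψ := by
    intro a b hab
    have h : (a : G)⁻¹ * (t * (a : G) * t⁻¹) = (b : G)⁻¹ * (t * (b : G) * t⁻¹) := congrArg Subtype.val hab
    have h' : (b : G) * (a : G)⁻¹ = 1 := by
      refine hfix _ (W.mul_mem b.2 (W.inv_mem a.2)) ?_
      calc t * ((b : G) * (a : G)⁻¹)
          = (b : G) * ((b : G)⁻¹ * (t * (b : G) * t⁻¹)) * (t * (a : G)⁻¹ * t⁻¹) * t := by group
        _ = (b : G) * ((a : G)⁻¹ * (t * (a : G) * t⁻¹)) * (t * (a : G)⁻¹ * t⁻¹) * t := by rw [h]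
        _ = (b : G) * (a : G)⁻¹ * t := by group
    exact Subtype.ext (mul_inv_eq_one.1 h').symm
  intro w hw
  obtain ⟨g, hg⟩ := (Finite.injective_iff_surjective.1 hinj) ⟨w, hw⟩
  have hg' : (g : G)⁻¹ * (t * (g : G) * t⁻¹) = w := congrArg Subtype.val hg
  rw [← hg']
  calc t * ((g : G)⁻¹ * (t * (g : G) * t⁻¹)) * t⁻¹
      = t * (g : G)⁻¹ * t⁻¹ * ((t * t * (g : G)) * (t * t)⁻¹) := by group
    _ = t * (g : G)⁻¹ * t⁻¹ * ((g : G) * (t * t) * (t * t)⁻¹) := by rw [hsq g g.2]
    _ = ((g : G)⁻¹ * (t * (g : G) * t⁻¹))⁻¹ := by group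

/-- In a `2`-group over a four-group with all outer centralisers of order at most four, the kernel is small. -/
theorem small_kernel {H : Type*} [Group H] (hG : IsPGroup 2 G) (f : G →* H) (hidx : f.ker.index = 4)
    (hcomm : ∀ x y, f x * f y = f y * f x)
    (hC : ∀ t, t ∉ f.ker → Nat.card (Subgroup.centralizer ({t} : Set G)) ≤ 4) : Nat.card f.ker ≤ 2 := by
  classical
  haveI : Fact (Nat.Prime 2) := ⟨Nat.prime_two⟩
  by_contra hbig
  obtain ⟨a, ha⟩ := IsPGroup.iff_card.1 (hG.to_subgroup f.ker)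
  have ha2 : 2 ≤ a := by
    by_contra hc
    have : 2 ^ a ≤ 2 ^ 1 := Nat.pow_le_pow_right (by norm_num) (by omega)
    omega
  obtain ⟨M, hM, hMP, hMc⟩ := PLocalBasics.exists_normal_card hG (inferInstance : f.ker.Normal) (a - 2)
    (ha ▸ Nat.pow_le_pow_right (by norm_num) (Nat.sub_le a 2))
  haveI := hM
  have hMidx : M.index = 16 := by
    have h1 := M.card_mul_index
    rw [← f.ker.card_mul_index, hidx, ha, hMc, show 2 ^ a = 2 ^ (a - 2) * 4 by
      rw [show (4 : ℕ) = 2 ^ 2 from rfl, ← pow_add]; congr 1; omega, mul_assoc] at h1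
    exact Nat.eq_of_mul_eq_mul_left (by positivity) h1
  set π := QuotientGroup.mk' M with hπ
  have hπs : Function.Surjective π := QuotientGroup.mk'_surjective M
  set P := f.ker.map π with hP
  haveI : P.Normal := Subgroup.Normal.map inferInstance π hπs
  have hQ : Nat.card (G ⧸ M) = 16 := hMidx
  have hPidx : P.index = 4 := by
    rw [hP, Subgroup.index_map_eq f.ker hπs (by rw [hπ, QuotientGroup.ker_mk']; exact hMP), hidx]
  have hPc : Nat.card P = 4 := by
    have := P.card_mul_index
    rw [hPidx, hQ] at this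
    omega
  haveI := Fintype.ofFinite (G ⧸ M)
  let ψ : (G ⧸ M) →* Equiv.Perm {p : ↥P // p ≠ 1} :=
    { toFun := fun q => (MulAut.conjNormal q : MulAut ↥P).toEquiv.subtypeEquiv fun p => by
        simp
      map_one' := Equiv.ext fun p => Subtype.ext (by simp)
      map_mul' := fun q r => Equiv.ext fun p => Subtype.ext (by simp) }
  have h3 : Nat.card {p : ↥P // p ≠ 1} = 3 := by
    rw [Nat.card_eq_fintype_card, Fintype.card_subtype_compl, Fintype.card_subtype_eq, ← Nat.card_eq_fintype_card,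
      hPc]
  have hrange : Nat.card ψ.range ∣ 2 := by
    have h1 := Subgroup.card_range_dvd ψ
    have h2 := ψ.range.card_subgroup_dvd_card
    rw [Nat.card_perm, h3] at h2
    rw [hQ] at h1
    have := Nat.dvd_gcd h1 h2
    rwa [show Nat.gcd 16 (Nat.factorial 3) = 2 from rfl] at this
  have hker : 4 < Nat.card ψ.ker := by
    have h1 := ψ.ker.card_mul_index
    rw [Subgroup.index_ker, hQ] at h1
    have h2 := Nat.le_of_dvd (by norm_num) hrange
    by_contra hc
    have := Nat.mul_le_mul (not_lt.1 hc) h2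
    omega
  obtain ⟨s, hs, hsP⟩ : ∃ s ∈ ψ.ker, s ∉ P := by
    by_contra hc
    push Not at hc
    have := Subgroup.card_le_of_le (show ψ.ker ≤ P from hc)
    omega
  have hscent : ∀ p ∈ P, p * s = s * p := by
    intro p hp
    by_cases hp1 : p = 1
    · rw [hp1, one_mul, mul_one]
    have h1 : s * p * s⁻¹ = p := by
      have h2 := congrArg (fun e : Equiv.Perm {p : ↥P // p ≠ 1} =>
        (((e ⟨⟨p, hp⟩, fun e => hp1 (congrArg Subtype.val e)⟩).1 : ↥P) : G ⧸ M)) hs
      simpa [ψ] using h2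
    exact (mul_inv_eq_iff_eq_mul.1 h1).symm
  obtain ⟨t, rfl⟩ := hπs s
  have ht : t ∉ f.ker := fun h => hsP ⟨t, h, rfl⟩
  set C := Subgroup.centralizer ({π t} : Set (G ⧸ M)) with hCdef
  have hPC : P < C := by
    refine lt_of_le_of_ne (fun p hp => Subgroup.mem_centralizer_singleton_iff.2 (hscent p hp)) fun e => hsP ?_
    rw [e]
    exact Subgroup.mem_centralizer_singleton_iff.2 rfl
  have hC8 : 8 ≤ Nat.card C := by
    obtain ⟨c, hc⟩ := Subgroup.card_dvd_of_le hPC.le
    have h1 : Nat.card C ≠ 4 := fun e => hPC.ne (Subgroup.eq_of_le_of_card_ge hPC.le (by omega))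
    have h2 : 0 < Nat.card C := Nat.card_pos
    rw [hPc] at hc
    omega
  have hCidx : C.index ≤ 2 := by
    have h1 := C.card_mul_index
    rw [hQ] at h1
    by_contra hc
    have := Nat.mul_le_mul hC8 (not_le.1 hc : 2 < C.index)
    omega
  have hcard : 4 * Nat.card f.ker ≤ Nat.card G := by
    rw [← f.ker.card_mul_index, hidx, mul_comm]
  have hclass : Nat.card ↥P ≤ Nat.card {x : G ⧸ M // IsConj (π t) x} := by
    refine Nat.card_le_card_of_injective (fun p => ⟨π t * p, ?_⟩) fun a b e =>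
      Subtype.ext (mul_left_cancel (congrArg Subtype.val e))
    obtain ⟨k, hk, hkp⟩ := p.2
    rw [← hkp, ← map_mul]
    exact π.map_isConj (coset_full f t (fun x => hcomm x t) (hC t ht) hcard hk)
  rw [CharBasics.card_conjClass, ← hCdef, hPc] at hclass
  omega

end CfsgLib.ValueGapFour
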