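import Cfsg.Agent.ValueGapFour.Order
import Cfsg.Agent.ValueGapFour.TwoGroup
import Cfsg.Agent.PCore.Basic
import Cfsg.Agent.Zass.Recognition

/-!
# The structure of the group
-/

set_option autoImplicit false
set_option linter.unusedSectionVars false
set_option linter.style.haveILetI false

namespace CfsgLib.ValueGapFour

universe u

variable {G : Type u} [Group G] [Fintype G] {u : G}

/-- Either a split or a double cover. -/
theorem structure_theorem (h : Gap u) :
    IsMulCommutative ↥(Cfsg.oddCore G) ∧ (Cfsg.oddCore G).Normal ∧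
      ((orderOf u = 2 ∧ (Cfsg.oddCore G).index = 60) ∨ (orderOf u = 4 ∧ (Cfsg.oddCore G).index = 120)) := by
  classical
  haveI : Fact (Nat.Prime 2) := ⟨Nat.prime_two⟩
  obtain ⟨K, hKn, huK, huu, h60, hcq, y, hy1, hy2, hy3, hy4⟩ := exists_quotient h
  haveI := hKn
  set q := QuotientGroup.mk' K with hq
  have hqs : Function.Surjective q := QuotientGroup.mk'_surjective K
  have hqker : ∀ g, q g = 1 ↔ g ∈ K := fun g => QuotientGroup.eq_one_iff g
  have hc4 : ∀ w, IsConj u w → Nat.card (Subgroup.centralizer ({w} : Set G)) = 4 := fun w hw =>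
    (card_centralizer_conj hw).symm.trans (card_centralizer h)
  set Cq := Subgroup.centralizer ({q u} : Set (G ⧸ K)) with hCq
  have hqu1 : q u ≠ 1 := fun e => huK ((hqker u).1 e)
  have hfour : ∀ a ∈ Cq, a = 1 ∨ a = q u ∨ a = y ∨ a = y * q u := by
    haveI := Fintype.ofFinite (G ⧸ K)
    set S : Finset (G ⧸ K) := {1, q u, y, y * q u} with hS
    have hy0 : y ≠ 1 := fun e => by
      rw [e] at hy1
      exact hqu1 (isConj_one_left.1 hy1)
    have hyu : y * q u ≠ 1 := fun e => by
      rw [e] at hy2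
      exact hqu1 (isConj_one_left.1 hy2)
    have hcard : S.card = 4 := by
      rw [hS, Finset.card_insert_of_notMem, Finset.card_insert_of_notMem, Finset.card_insert_of_notMem,
        Finset.card_singleton]
      · simp only [Finset.mem_singleton]
        exact fun e => hqu1 (mul_eq_left.1 e.symm)
      · simp only [Finset.mem_insert, Finset.mem_singleton]
        rintro (e | e)
        · exact hy4 e.symm
        · exact hy0 (mul_eq_right.1 e.symm)
      · simp only [Finset.mem_insert, Finset.mem_singleton]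
        rintro (e | e | e)
        exacts [hqu1 e.symm, hy0 e.symm, hyu e.symm]
    have hyC : y ∈ Cq := Subgroup.mem_centralizer_singleton_iff.2 hy3
    have huC : q u ∈ Cq := Subgroup.mem_centralizer_singleton_iff.2 rfl
    have hsub : S ⊆ Finset.univ.filter fun a => a ∈ Cq := by
      intro a ha
      refine Finset.mem_filter.2 ⟨Finset.mem_univ _, ?_⟩
      simp only [hS, Finset.mem_insert, Finset.mem_singleton] at ha
      rcases ha with rfl | rfl | rfl | rfl
      exacts [one_mem _, huC, hyC, mul_mem hyC huC]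
    have heq : S = Finset.univ.filter fun a => a ∈ Cq := Finset.eq_of_subset_of_card_le hsub (by
      rw [hcard, ← Fintype.card_subtype, ← Nat.card_eq_fintype_card]; exact hcq.le)
    intro a ha
    have : a ∈ S := heq ▸ Finset.mem_filter.2 ⟨Finset.mem_univ _, ha⟩
    simpa [hS] using this
  have hCqcomm : ∀ a ∈ Cq, ∀ b ∈ Cq, a * b = b * a := by
    have h1 : Commute y (q u) := hy3
    intro a ha b hb
    rcases hfour a ha with rfl | rfl | rfl | rfl <;> rcases hfour b hb with rfl | rfl | rfl | rfl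
    all_goals first
      | exact (Commute.one_left _).eq
      | exact (Commute.one_right _).eq
      | rfl
      | exact h1.eq
      | exact h1.symm.eq
      | exact ((Commute.refl _).mul_right h1).eq
      | exact ((Commute.refl _).mul_right h1).symm.eq
      | exact (h1.symm.mul_right (Commute.refl _)).eq
      | exact (h1.symm.mul_right (Commute.refl _)).symm.eq
  -- the preimage of the four-group
  set N := Cq.comap q with hN
  have hNK : K ≤ N := fun k hk => by
    rw [hN, Subgroup.mem_comap, (hqker k).2 hk]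
    exact one_mem _
  have huN : u ∈ N := Subgroup.mem_centralizer_singleton_iff.2 rfl
  have hKpos : 0 < Nat.card K := Nat.card_pos
  have hKidx : K.index = 60 := h60
  have hNcard : Nat.card N = 4 * Nat.card K := by
    have h1 := N.card_mul_index
    rw [hN, Subgroup.index_comap_of_surjective _ hqs, ← hN] at h1
    have h2 := Cq.card_mul_index
    rw [hcq, h60] at h2
    have h3 := K.card_mul_index
    rw [hKidx] at h3
    have h15 : Cq.index = 15 := by omega
    rw [h15] at h1
    omega
  have hcoset : ∀ k ∈ K, IsConj u (u * k) := by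
    intro k hk
    let f : ↥N →* G ⧸ K := q.comp N.subtype
    have hker : Nat.card f.ker = Nat.card K := by
      rw [show f.ker = K.subgroupOf N from by ext x; exact hqker x]
      exact Nat.card_congr (Subgroup.subgroupOfEquivOfLe hNK).toEquiv
    have h1 := coset_full f ⟨u, huN⟩
      (fun x => Subgroup.mem_centralizer_singleton_iff.1 (show q x ∈ Cq from x.2))
      (by
        refine le_trans ?_ (hc4 u (IsConj.refl u)).le
        refine Nat.card_le_card_of_injective (fun x => ⟨((x.1 : ↥N) : G), ?_⟩) fun a b e => ?_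
        · exact Subgroup.mem_centralizer_singleton_iff.2
            (congrArg Subtype.val (Subgroup.mem_centralizer_singleton_iff.1 x.2))
        · have e' := congrArg Subtype.val e
          exact Subtype.ext (Subtype.ext e'))
      (by rw [hker, hNcard]) (k := ⟨k, hNK hk⟩) ((hqker k).2 hk)
    exact N.subtype.map_isConj h1
  have hlift : ∀ w, IsConj (q u) (q w) → IsConj u w := by
    intro w hw
    obtain ⟨c, hc⟩ := isConj_iff.1 hw
    obtain ⟨g, rfl⟩ := hqs c
    have hk : u⁻¹ * (g⁻¹ * w * g) ∈ K := by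
      rw [← hqker, map_mul, map_mul, map_mul, map_inv, map_inv, ← hc]
      group
    refine (hcoset _ hk).trans (isConj_iff.2 ⟨g, ?_⟩)
    group
  have hKC : ∀ w, IsConj u w → w ∉ K ∧ Nat.card ↥(K ⊓ Subgroup.centralizer ({w} : Set G)) ≤ 2 := by
    intro w hw
    have hwK : w ∉ K := fun hwK => by
      obtain ⟨c, hc⟩ := isConj_iff.1 hw.symm
      exact huK (hc ▸ hKn.conj_mem w hwK c)
    refine ⟨hwK, ?_⟩
    obtain ⟨m, hm⟩ := Subgroup.card_dvd_of_le (inf_le_right : K ⊓ Subgroup.centralizer ({w} : Set G) ≤ _)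
    rw [hc4 w hw] at hm
    have hne : Nat.card ↥(K ⊓ Subgroup.centralizer ({w} : Set G)) ≠ 4 := fun e => hwK (by
      have hh := Subgroup.eq_of_le_of_card_ge (inf_le_right : K ⊓ Subgroup.centralizer ({w} : Set G) ≤ _)
        (by rw [e, hc4 w hw])
      exact (inf_eq_right.1 hh) (Subgroup.mem_centralizer_singleton_iff.2 rfl))
    have h1 : Nat.card ↥(K ⊓ Subgroup.centralizer ({w} : Set G)) ≤ 4 := Nat.le_of_dvd (by norm_num) ⟨m, hm⟩
    by_contra hc
    have : Nat.card ↥(K ⊓ Subgroup.centralizer ({w} : Set G)) = 3 := by omega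
    rw [this] at hm
    omega
  have hperf := perfect h
  have hHperf : commutator (G ⧸ K) = ⊤ := CfsgLib.Zass.commutator_eq_top_of_surjective q hqs hperf
  haveI hsimple : IsSimpleGroup (G ⧸ K) := CfsgLib.Zass.isSimpleGroup_of_perfect_sixty hHperf h60
  set O := Cfsg.oddCore G with hO
  haveI hOn : O.Normal := (CfsgLib.PCore.pPrimeCore_mem 2 G).1
  have hOodd : (Nat.card O).Coprime 2 := CfsgLib.PCore.pPrimeCore_coprime 2 G
  have hOK : O ≤ K := by
    rcases hsimple.eq_bot_or_eq_top_of_normal (O.map q) (hOn.map q hqs) with e | e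
    · rw [Subgroup.map_eq_bot_iff, QuotientGroup.ker_mk'] at e
      exact e
    · exfalso
      have h1 := hOodd.coprime_dvd_left (Subgroup.card_map_dvd O q)
      rw [e, Subgroup.card_top, h60] at h1
      norm_num at h1
  have hsqK : u * u ∈ K ⊓ Subgroup.centralizer ({u} : Set G) :=
    ⟨huu, Subgroup.mem_centralizer_singleton_iff.2 (mul_assoc u u u)⟩
  by_cases hbot : K ⊓ Subgroup.centralizer ({u} : Set G) = ⊥
  · -- `u` inverts `K`
    have hu2 : u * u = 1 := by rwa [hbot, Subgroup.mem_bot] at hsqK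
    have hinv : ∀ k ∈ K, u * k * u⁻¹ = k⁻¹ := by
      intro k hk
      have h1 : u * k * u * k = 1 := by
        rw [mul_assoc (u * k) u k]
        exact sq_conj hu2 (hcoset k hk)
      rw [inv_eq_of_mul_eq_one_right hu2]
      exact eq_inv_of_mul_eq_one_left h1
    have hKc : IsMulCommutative ↥K := ⟨⟨fun a b => Subtype.ext (by
      have h1 := hinv _ (K.mul_mem b.2 a.2)
      rw [mul_inv_rev] at h1
      have h3 : (a : G)⁻¹ * (b : G)⁻¹ = (b : G)⁻¹ * (a : G)⁻¹ := by
        rw [← h1, ← hinv _ b.2, ← hinv _ a.2]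
        group
      have h4 := congrArg (·⁻¹) h3
      simp only [mul_inv_rev, inv_inv] at h4
      show (a : G) * (b : G) = (b : G) * (a : G)
      exact h4.symm)⟩⟩
    have hKodd : (Nat.card K).Coprime 2 := by
      refine CfsgLib.PCore.coprime_of_not_dvd fun h2 => ?_
      obtain ⟨k, hk⟩ := exists_prime_orderOf_dvd_card' 2 h2
      have hk2 : (k : G) * k = 1 := by
        rw [← pow_two, ← SubmonoidClass.coe_pow, ← hk, pow_orderOf_eq_one, OneMemClass.coe_one]
      have hkC : (k : G) ∈ K ⊓ Subgroup.centralizer ({u} : Set G) := by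
        refine ⟨k.2, Subgroup.mem_centralizer_singleton_iff.2 ?_⟩
        have h1 := hinv _ k.2
        rw [inv_eq_of_mul_eq_one_right hk2, mul_inv_eq_iff_eq_mul] at h1
        exact h1.symm
      rw [hbot, Subgroup.mem_bot] at hkC
      have hk1 : k = 1 := Subtype.ext hkC
      rw [hk1, orderOf_one] at hk
      norm_num at hk
    have hOeq : O = K := le_antisymm hOK (CfsgLib.PCore.le_pPrimeCore hKn hKodd)
    exact ⟨hOeq ▸ hKc, hOn, .inl ⟨orderOf_eq_prime (by rw [pow_two]; exact hu2) h.1, hOeq ▸ hKidx⟩⟩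
  -- the double cover
  obtain ⟨z, hz, hz1⟩ := (Subgroup.bot_or_exists_ne_one _).resolve_left hbot
  have hCu2 : Nat.card ↥(K ⊓ Subgroup.centralizer ({u} : Set G)) = 2 := by
    have h1 := (hKC u (IsConj.refl u)).2
    have h2 : Nat.card ↥(K ⊓ Subgroup.centralizer ({u} : Set G)) ≠ 1 := fun e => hbot (Subgroup.card_eq_one.1 e)
    have h3 : 0 < Nat.card ↥(K ⊓ Subgroup.centralizer ({u} : Set G)) := Nat.card_pos
    omega
  have honly : ∀ x ∈ K ⊓ Subgroup.centralizer ({u} : Set G), x ≠ 1 → x = z := by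
    intro x hx hx1
    by_contra hxz
    have hle : ({1, x, z} : Finset G).card ≤ 2 := by
      rw [← hCu2, Nat.card_eq_fintype_card, Fintype.card_subtype]
      refine Finset.card_le_card fun a ha => Finset.mem_filter.2 ⟨Finset.mem_univ _, ?_⟩
      simp only [Finset.mem_insert, Finset.mem_singleton] at ha
      rcases ha with rfl | rfl | rfl
      exacts [one_mem _, hx, hz]
    rw [Finset.card_insert_of_notMem (by simp [Ne.symm hx1, Ne.symm hz1]),
      Finset.card_insert_of_notMem (by simp [hxz]), Finset.card_singleton] at hle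
    omega
  have hzz : z * z = 1 := by
    by_contra hne
    exact hz1 (mul_eq_left.1 (honly _ (mul_mem hz hz) hne))
  obtain ⟨v, rfl⟩ := hqs y
  have hv : IsConj u v := hlift v hy1
  have hvu : IsConj u (v * u) := hlift (v * u) (by rw [map_mul]; exact hy2)
  -- `u` is not an involution
  have husq : u * u ≠ 1 := by
    intro hu2
    have hinvol : ∀ w, IsConj u w → ∀ k ∈ K, w * k * w⁻¹ = k⁻¹ := by
      intro w hw k hk
      have hw2 := sq_conj hu2 hw
      have hwk : IsConj u (w * k) := hlift (w * k) (by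
        rw [map_mul, (hqker k).2 hk, mul_one]
        exact q.map_isConj hw)
      have h1 : w * k * w * k = 1 := by
        rw [mul_assoc (w * k) w k]
        exact sq_conj hu2 hwk
      rw [inv_eq_of_mul_eq_one_right hw2]
      exact eq_inv_of_mul_eq_one_left h1
    have hexp : ∀ k ∈ K, k * k = 1 := by
      intro k hk
      have h1 := hinvol (v * u) hvu k hk
      have h2 : v * u * k * (v * u)⁻¹ = k := by
        calc v * u * k * (v * u)⁻¹ = v * (u * k * u⁻¹) * v⁻¹ := by group
          _ = v * k⁻¹ * v⁻¹ := by rw [hinvol u (IsConj.refl u) k hk]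
          _ = (v * k * v⁻¹)⁻¹ := by group
          _ = k := by rw [hinvol v hv k hk, inv_inv]
      rw [h2] at h1
      exact mul_eq_one_iff_eq_inv.2 h1
    have hvC : v ∈ Subgroup.centralizer ({u} : Set G) := Subgroup.mem_centralizer_singleton_iff.2
      (commute_of_sq (sq_conj hu2 hv) hu2 (sq_conj hu2 hvu))
    have hzu := Subgroup.mem_centralizer_singleton_iff.1 hz.2
    have huC : u ∈ Subgroup.centralizer ({u} : Set G) := Subgroup.mem_centralizer_singleton_iff.2 rfl
    have hqz : q z = 1 := (hqker z).2 hz.1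
    have hv1 : q v ≠ 1 := fun e => (hKC v hv).1 ((hqker v).1 e)
    have hle : ({1, z, u, u * z, v} : Finset G).card ≤ 4 := by
      rw [← hc4 u (IsConj.refl u), Nat.card_eq_fintype_card, Fintype.card_subtype]
      refine Finset.card_le_card fun a ha => Finset.mem_filter.2 ⟨Finset.mem_univ _, ?_⟩
      simp only [Finset.mem_insert, Finset.mem_singleton] at ha
      rcases ha with rfl | rfl | rfl | rfl | rfl
      exacts [one_mem _, hz.2, huC, mul_mem huC hz.2, hvC]
    rw [Finset.card_insert_of_notMem, Finset.card_insert_of_notMem, Finset.card_insert_of_notMem,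
      Finset.card_insert_of_notMem, Finset.card_singleton] at hle
    · omega
    · simp only [Finset.mem_singleton]
      intro e
      exact hy4 (by rw [← e, map_mul, hqz, mul_one])
    · simp only [Finset.mem_insert, Finset.mem_singleton]
      rintro (e | e)
      · exact hz1 (mul_eq_left.1 e.symm)
      · exact hy4 (by rw [← e])
    · simp only [Finset.mem_insert, Finset.mem_singleton]
      rintro (e | e | e)
      · exact huK (e ▸ hz.1)
      · exact hqu1 (calc q u = q (u * z) := by rw [map_mul, hqz, mul_one]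
          _ = 1 := by rw [← e, hqz])
      · exact hv1 (by rw [← e, hqz])
    · simp only [Finset.mem_insert, Finset.mem_singleton]
      rintro (e | e | e | e)
      · exact hz1 e.symm
      · exact h.1 e.symm
      · exact hqu1 (calc q u = q (u * z) := by rw [map_mul, hqz, mul_one]
          _ = 1 := by rw [← e, map_one])
      · exact hv1 (by rw [← e, map_one])
  have huz : u * u = z := honly _ hsqK husq
  have hord : orderOf u = 4 := by
    have := orderOf_eq_prime_pow (p := 2) (n := 1) (x := u) (by rw [pow_one, pow_two]; exact husq)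
      (by rw [show (2 : ℕ) ^ (1 + 1) = 2 + 2 from rfl, pow_add, pow_two, huz, hzz])
    simpa using this
  -- the Sylow 2-subgroup of `K` has order two
  have hsqne : ∀ w, IsConj u w → w * w ≠ 1 := fun w hw e => husq (sq_conj e hw.symm)
  let U : Subgroup ↥N := Subgroup.zpowers ⟨u, huN⟩
  have hU : IsPGroup 2 U := IsPGroup.of_card (n := 2) (by
    rw [Nat.card_zpowers, ← Subgroup.orderOf_coe, hord]; rfl)
  obtain ⟨T0, hT0⟩ := hU.exists_le_sylow
  set T := (T0 : Subgroup ↥N).map N.subtype with hT
  have hTN : T ≤ N := Subgroup.map_subtype_le _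
  have hTp : IsPGroup 2 ↥T := T0.isPGroup'.map _
  have huT : u ∈ T := ⟨⟨u, huN⟩, hT0 (Subgroup.mem_zpowers _), rfl⟩
  have hzT : z ∈ T := huz ▸ T.mul_mem huT huT
  let f : ↥T →* G ⧸ K := q.comp T.subtype
  set a := (Nat.card K).factorization 2 with ha
  have hTcard : Nat.card T = 2 ^ (2 + a) := by
    rw [hT, Subgroup.card_map_of_injective N.subtype_injective, T0.card_eq_multiplicity, hNcard,
      Nat.factorization_mul (by norm_num) hKpos.ne', Finsupp.add_apply, ← ha]
    congr 1
    rw [show (4 : ℕ) = 2 ^ 2 from rfl, Nat.Prime.factorization_pow Nat.prime_two, Finsupp.single_eq_same]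
  have hfrange : f.range ≤ Cq := by
    rintro _ ⟨x, rfl⟩
    exact hTN x.2
  have hfker : f.ker = K.subgroupOf T := by ext x; exact hqker x
  have hkercard : Nat.card f.ker ≤ 2 ^ a := by
    obtain ⟨b, hb⟩ := IsPGroup.iff_card.1 (hTp.to_subgroup f.ker)
    have hdvd : Nat.card f.ker ∣ Nat.card K :=
      hfker ▸ Subgroup.card_comap_dvd_of_injective K T.subtype T.subtype_injective
    rw [hb] at hdvd ⊢
    exact Nat.pow_le_pow_right (by norm_num) ((Nat.prime_two.pow_dvd_iff_le_factorization hKpos.ne').1 hdvd)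
  have hrange : Nat.card f.range ≤ 4 := hcq ▸ Subgroup.card_le_of_le hfrange
  have hmul := f.ker.card_mul_index
  rw [Subgroup.index_ker, hTcard, pow_add] at hmul
  rw [show (2 : ℕ) ^ 2 = 4 from rfl] at hmul
  have hapos : 0 < 2 ^ a := pow_pos (by norm_num) a
  have hr4 : Nat.card f.range = 4 := by
    refine le_antisymm hrange (Nat.le_of_mul_le_mul_left ?_ hapos)
    calc 2 ^ a * 4 = Nat.card f.ker * Nat.card f.range := by rw [hmul, mul_comm]
      _ ≤ 2 ^ a * Nat.card f.range := Nat.mul_le_mul_right _ hkercard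
  have hk2a : Nat.card f.ker = 2 ^ a := by rw [hr4] at hmul; omega
  have hfr : f.range = Cq := Subgroup.eq_of_le_of_card_ge hfrange (by omega)
  have hout : ∀ t : ↥T, t ∉ f.ker → IsConj u (t : G) := by
    intro t ht
    refine hlift _ ?_
    rcases hfour (q t) (hTN t.2) with e | e | e | e
    · exact absurd e ht
    · rw [e]
    · rw [e]; exact hy1
    · rw [e]; exact hy2
  have hsmall : Nat.card f.ker ≤ 2 := small_kernel hTp f (by rw [Subgroup.index_ker, hr4])
    (fun x x' => hCqcomm _ (hfrange ⟨x, rfl⟩) _ (hfrange ⟨x', rfl⟩)) fun t ht => by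
      refine le_trans ?_ (hc4 _ (hout t ht)).le
      refine Nat.card_le_card_of_injective (fun x => ⟨((x.1 : ↥T) : G), ?_⟩) fun a b e => ?_
      · exact Subgroup.mem_centralizer_singleton_iff.2
          (congrArg Subtype.val (Subgroup.mem_centralizer_singleton_iff.1 x.2))
      · have e' := congrArg Subtype.val e
        exact Subtype.ext (Subtype.ext e')
  have hzK2 : 2 ∣ Nat.card K := by
    have h1 := Subgroup.orderOf_dvd_natCard K hz.1
    rwa [orderOf_eq_prime (by rw [pow_two]; exact hzz) hz1] at h1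
  have ha1 : a = 1 := by
    have h1 : 0 < a := Nat.prime_two.factorization_pos_of_dvd hKpos.ne' hzK2
    have h2 : 2 ^ a ≤ 2 ^ 1 := by rw [← hk2a]; simpa using hsmall
    have := (Nat.pow_le_pow_iff_right (by norm_num : 1 < 2)).1 h2
    omega
  have hTsq : ∀ t : ↥T, t ∉ f.ker → (t : G) * t = z := by
    intro t ht
    have hne := hsqne _ (hout t ht)
    have htt : (t : G) * t ∈ K := by
      rw [← hqker, map_mul]
      exact sq_conj ((map_mul q u u).symm.trans ((hqker _).2 huu)) (q.map_isConj (hout t ht))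
    by_contra hne2
    have hle : ({1, ⟨(t : G) * t, T.mul_mem t.2 t.2⟩, ⟨z, hzT⟩} : Finset ↥T).card ≤ 2 := by
      rw [show (2 : ℕ) = Nat.card f.ker by rw [hk2a, ha1, pow_one], Nat.card_eq_fintype_card, Fintype.card_subtype]
      refine Finset.card_le_card fun a ha => Finset.mem_filter.2 ⟨Finset.mem_univ _, ?_⟩
      simp only [Finset.mem_insert, Finset.mem_singleton] at ha
      rcases ha with rfl | rfl | rfl
      · exact one_mem _
      · exact (hqker _).2 htt
      · exact (hqker _).2 hz.1
    rw [Finset.card_insert_of_notMem (by simp [Subtype.ext_iff, Ne.symm hne, Ne.symm hz1]),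
      Finset.card_insert_of_notMem (by simp [Subtype.ext_iff, hne2]), Finset.card_singleton] at hle
    omega
  -- the normal 2-complement
  obtain ⟨R⟩ : Nonempty (Sylow 2 ↥K) := inferInstance
  have hR : Nat.card (R : Subgroup ↥K) = 2 := by rw [R.card_eq_multiplicity, ← ha, ha1, pow_one]
  haveI hRc : IsCyclic (R : Subgroup ↥K) := isCyclic_of_prime_card hR
  have hmin : (Nat.card ↥K).minFac = 2 := (Nat.minFac_eq_two_iff _).mpr hzK2
  have hRP := hRc.normalizer_le_centralizer hmin
  letI : CommGroup (R : Subgroup ↥K) := IsCyclic.commGroup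
  set M0 := (MonoidHom.transferSylow R hRP).ker with hM0
  have hcompl := MonoidHom.ker_transferSylow_isComplement' R hRP
  have hM0card : Nat.card M0 * 2 = Nat.card K := by rw [← hR]; exact hcompl.card_mul
  have hM0odd : ¬ 2 ∣ Nat.card M0 := by
    intro hd
    have h4 : 2 ^ 2 ∣ Nat.card K := by rw [← hM0card]; exact Nat.mul_dvd_mul_right hd 2
    have := (Nat.prime_two.pow_dvd_iff_le_factorization hKpos.ne').1 h4
    omega
  have hM0idx : M0.index = 2 := by rw [hcompl.symm.index_eq_card, hR]
  set M := M0.map K.subtype with hM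
  have hMK : M ≤ K := Subgroup.map_subtype_le _
  have hmemM : ∀ x, x ∈ M ↔ x ∈ K ∧ ¬ 2 ∣ orderOf x := by
    intro x
    refine ⟨fun hx => ⟨hMK hx, fun hd => hM0odd ?_⟩, ?_⟩
    · obtain ⟨w, hw, rfl⟩ := hx
      refine hd.trans ?_
      rw [show orderOf (K.subtype w) = orderOf w from Subgroup.orderOf_coe w]
      exact Subgroup.orderOf_dvd_natCard M0 hw
    · rintro ⟨hxK, hxo⟩
      refine ⟨⟨x, hxK⟩, ?_, rfl⟩
      rw [SetLike.mem_coe, ← QuotientGroup.eq_one_iff (N := M0), ← orderOf_eq_one_iff]
      have h1 : orderOf ((⟨x, hxK⟩ : ↥K) : ↥K ⧸ M0) ∣ orderOf x := by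
        rw [show orderOf x = orderOf (⟨x, hxK⟩ : ↥K) from Subgroup.orderOf_coe (⟨x, hxK⟩ : ↥K)]
        exact orderOf_map_dvd (QuotientGroup.mk' M0) _
      have h2 : orderOf ((⟨x, hxK⟩ : ↥K) : ↥K ⧸ M0) ∣ 2 := by
        refine dvd_trans (orderOf_dvd_natCard _) (dvd_of_eq ?_)
        rw [← Subgroup.index_eq_card]
        exact hM0idx
      rcases (Nat.dvd_prime Nat.prime_two).1 h2 with e | e
      · exact e
      · exact absurd (e ▸ h1) hxo
  haveI hMn : M.Normal := ⟨fun x hx g => by
    obtain ⟨hxK, hxo⟩ := (hmemM x).1 hx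
    refine (hmemM _).2 ⟨hKn.conj_mem x hxK g, ?_⟩
    rwa [show g * x * g⁻¹ = MulAut.conj g x from rfl, MulEquiv.orderOf_eq]⟩
  have hMcard : Nat.card M = Nat.card M0 := Subgroup.card_map_of_injective K.subtype_injective
  have hOM : O = M := by
    refine le_antisymm (fun x hx => (hmemM x).2 ⟨hOK hx, fun hd => ?_⟩) ?_
    · have h1 := hOodd.coprime_dvd_left (hd.trans (Subgroup.orderOf_dvd_natCard O hx))
      norm_num at h1
    · exact CfsgLib.PCore.le_pPrimeCore hMn (CfsgLib.PCore.coprime_of_not_dvd (hMcard ▸ hM0odd))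
  have hoddtriv : ∀ w, IsConj u w → ∀ x ∈ M, w * x = x * w → x = 1 := by
    intro w hw x hx hcomm
    have hxm : x ∈ K ⊓ Subgroup.centralizer ({w} : Set G) :=
      ⟨hMK hx, Subgroup.mem_centralizer_singleton_iff.2 hcomm.symm⟩
    obtain ⟨-, hxo⟩ := (hmemM x).1 hx
    have h1 := Subgroup.orderOf_dvd_natCard _ hxm
    have h2 := (hKC w hw).2
    have h3 := Nat.le_of_dvd Nat.card_pos h1
    have h4 : 0 < orderOf x := orderOf_pos x
    by_contra hx1
    have h5 : orderOf x ≠ 1 := fun e => hx1 (orderOf_eq_one_iff.1 e)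
    exact hxo (by rw [show orderOf x = 2 by omega])
  -- `z` is fixed point free on `M`
  have hvT : ∃ t : ↥T, q (t : G) = q v := by
    have : q v ∈ f.range := hfr ▸ Subgroup.mem_centralizer_singleton_iff.2 hy3
    exact this
  obtain ⟨t, ht⟩ := hvT
  have hqtu : q ((t * ⟨u, huT⟩ : ↥T) : G) = q v * q u := by
    rw [Subgroup.coe_mul, map_mul, ht]
  have htk : t ∉ f.ker := fun e => (hKC v hv).1 ((hqker v).1 (ht ▸ e))
  have htuk : t * ⟨u, huT⟩ ∉ f.ker := fun e => (hKC _ hvu).1 ((hqker _).1 (by rw [map_mul, ← hqtu]; exact e))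
  set W := M ⊓ Subgroup.centralizer ({z} : Set G) with hW
  have hWinv : ∀ s : ↥T, s ∉ f.ker → ∀ x ∈ W, (s : G) * x * (s : G)⁻¹ = x⁻¹ := by
    intro s hs
    have hsz : (s : G) * z = z * s := by rw [← hTsq s hs, mul_assoc]
    refine inverts W (s : G) (fun x hx => ⟨hMn.conj_mem x hx.1 _, ?_⟩) (fun x hx => ?_)
      fun x hx hc => hoddtriv _ (hout s hs) x hx.1 hc
    · refine Subgroup.mem_centralizer_singleton_iff.2 ?_
      have hxz := Subgroup.mem_centralizer_singleton_iff.1 hx.2
      have hsz' : (s : G)⁻¹ * z = z * (s : G)⁻¹ := (Commute.inv_left hsz).eq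
      calc (s : G) * x * (s : G)⁻¹ * z = (s : G) * (x * z) * (s : G)⁻¹ := by rw [mul_assoc, hsz']; group
        _ = (s : G) * (z * x) * (s : G)⁻¹ := by rw [hxz]
        _ = z * ((s : G) * x * (s : G)⁻¹) := by rw [← mul_assoc (s : G), hsz]; group
    · rw [hTsq s hs]
      exact (Subgroup.mem_centralizer_singleton_iff.1 hx.2).symm
  have huk : (⟨u, huT⟩ : ↥T) ∉ f.ker := fun e => huK ((hqker u).1 e)
  have hWbot : ∀ x ∈ W, x = 1 := by
    intro x hx
    have h1 := hWinv (t * ⟨u, huT⟩) htuk x hx
    rw [Subgroup.coe_mul] at h1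
    have h2 : (t : G) * u * x * ((t : G) * u)⁻¹ = x := by
      calc (t : G) * u * x * ((t : G) * u)⁻¹ = (t : G) * (u * x * u⁻¹) * (t : G)⁻¹ := by group
        _ = (t : G) * x⁻¹ * (t : G)⁻¹ := by rw [hWinv ⟨u, huT⟩ huk x hx]
        _ = ((t : G) * x * (t : G)⁻¹)⁻¹ := by group
        _ = x := by rw [hWinv t htk x hx, inv_inv]
    rw [h2] at h1
    obtain ⟨-, hxo⟩ := (hmemM x).1 hx.1
    have h3 : orderOf x ∣ 2 := orderOf_dvd_of_pow_eq_one (by rw [pow_two]; exact mul_eq_one_iff_eq_inv.2 h1)
    rcases (Nat.dvd_prime Nat.prime_two).1 h3 with e | e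
    · exact orderOf_eq_one_iff.1 e
    · exact absurd (by rw [e]) hxo
  have hzinv : ∀ x ∈ M, z * x * z⁻¹ = x⁻¹ := inverts M z (fun x hx => hMn.conj_mem x hx z)
    (fun x _ => by rw [hzz, one_mul, mul_one])
    fun x hx hc => hWbot x ⟨hx, Subgroup.mem_centralizer_singleton_iff.2 hc.symm⟩
  have hMc : IsMulCommutative ↥M := ⟨⟨fun a b => Subtype.ext (by
    have h1 := hzinv _ (M.mul_mem b.2 a.2)
    rw [mul_inv_rev] at h1
    have h3 : (a : G)⁻¹ * (b : G)⁻¹ = (b : G)⁻¹ * (a : G)⁻¹ := by
      rw [← h1, ← hzinv _ b.2, ← hzinv _ a.2]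
      group
    have h4 := congrArg (·⁻¹) h3
    simp only [mul_inv_rev, inv_inv] at h4
    show (a : G) * (b : G) = (b : G) * (a : G)
    exact h4.symm)⟩⟩
  refine ⟨hOM ▸ hMc, hOn, .inr ⟨hord, ?_⟩⟩
  rw [hOM]
  have h1 := M.card_mul_index
  rw [← K.card_mul_index, hKidx, ← hM0card, ← hMcard] at h1
  have h2 : 0 < Nat.card M := Nat.card_pos
  exact Nat.eq_of_mul_eq_mul_left h2 (h1.trans (by ring))

end CfsgLib.ValueGapFour
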