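import Mathlib
import Cfsg.Agent.BrauerInd.FSInd

/-!
The symmetric square of a character is a character.
-/

set_option autoImplicit false
set_option linter.style.haveILetI false

namespace CfsgLib.ValueGapFour

open Matrix CfsgLib.BrauerInd

universe u

variable {G : Type u} [Group G] [Fintype G] {n : ℕ}

/-- The symmetric matrices. -/
def symm (n : ℕ) : Submodule ℂ (Matrix (Fin n) (Fin n) ℂ) where
  carrier := {M | Mᵀ = M}
  add_mem' := fun {M N} (hM : Mᵀ = M) (hN : Nᵀ = N) => by
    show (M + N)ᵀ = M + N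
    rw [Matrix.transpose_add, hM, hN]
  zero_mem' := by simp
  smul_mem' := fun c M (hM : Mᵀ = M) => by
    show (c • M)ᵀ = c • M
    rw [Matrix.transpose_smul, hM]

theorem mem_symm {M : Matrix (Fin n) (Fin n) ℂ} : M ∈ symm n ↔ Mᵀ = M := Iff.rfl

/-- The congruence action. -/
noncomputable def congAct (A : Matrix (Fin n) (Fin n) ℂ) :
    Matrix (Fin n) (Fin n) ℂ →ₗ[ℂ] Matrix (Fin n) (Fin n) ℂ where
  toFun M := A * M * Aᵀ
  map_add' M N := by simp [mul_add, add_mul]
  map_smul' c M := by simp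

theorem congAct_mem {A M : Matrix (Fin n) (Fin n) ℂ} (hM : M ∈ symm n) : congAct A M ∈ symm n := by
  rw [mem_symm] at hM ⊢
  show (A * M * Aᵀ)ᵀ = A * M * Aᵀ
  rw [Matrix.transpose_mul, Matrix.transpose_mul, Matrix.transpose_transpose, hM, ← Matrix.mul_assoc]

/-- The projection on the symmetric matrices. -/
noncomputable def symmProj (n : ℕ) : Matrix (Fin n) (Fin n) ℂ →ₗ[ℂ] symm n where
  toFun M := ⟨(2 : ℂ)⁻¹ • (M + Mᵀ), by
    rw [mem_symm, Matrix.transpose_smul, Matrix.transpose_add, Matrix.transpose_transpose, add_comm]⟩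
  map_add' M N := Subtype.ext (by
    simp only [Matrix.transpose_add, Submodule.coe_add, ← smul_add]
    congr 1
    abel)
  map_smul' c M := Subtype.ext (by
    simp only [Matrix.transpose_smul, ← smul_add, RingHom.id_apply, SetLike.val_smul, smul_comm (2 : ℂ)⁻¹ c])

theorem symmProj_coe (M : symm n) : symmProj n (M : Matrix (Fin n) (Fin n) ℂ) = M := by
  refine Subtype.ext ?_
  show (2 : ℂ)⁻¹ • ((M : Matrix (Fin n) (Fin n) ℂ) + (M : Matrix (Fin n) (Fin n) ℂ)ᵀ) = M
  rw [show (M : Matrix (Fin n) (Fin n) ℂ)ᵀ = (M : Matrix (Fin n) (Fin n) ℂ) from M.2, ← two_smul ℂ,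
    smul_smul, inv_mul_cancel₀ two_ne_zero, one_smul]

/-- The representation on symmetric matrices. -/
noncomputable def symmRep (A : G →* Matrix (Fin n) (Fin n) ℂ) : Representation ℂ G (symm n) where
  toFun g := (congAct (A g)).restrict fun _ hM => congAct_mem hM
  map_one' := by
    refine LinearMap.ext fun M => Subtype.ext ?_
    show A 1 * (M : Matrix (Fin n) (Fin n) ℂ) * (A 1)ᵀ = (M : Matrix (Fin n) (Fin n) ℂ)
    simp
  map_mul' a b := by
    refine LinearMap.ext fun M => Subtype.ext ?_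
    show A (a * b) * (M : Matrix (Fin n) (Fin n) ℂ) * (A (a * b))ᵀ =
      A a * (A b * (M : Matrix (Fin n) (Fin n) ℂ) * (A b)ᵀ) * (A a)ᵀ
    simp [Matrix.mul_assoc, Matrix.transpose_mul]

theorem trace_symm (A : Matrix (Fin n) (Fin n) ℂ) :
    LinearMap.trace ℂ (symm n) ((congAct A).restrict fun _ hM => congAct_mem hM) =
      (A.trace * A.trace + (A * A).trace) / 2 := by
  set T := (congAct A).restrict (p := symm n) (q := symm n) (fun _ hM => congAct_mem hM) with hT
  have h1 : T = (symmProj n).comp ((symm n).subtype.comp T) := by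
    refine LinearMap.ext fun M => ?_
    rw [LinearMap.comp_apply, LinearMap.comp_apply, Submodule.subtype_apply, symmProj_coe]
  rw [h1, LinearMap.trace_comp_comm', LinearMap.comp_assoc,
    LinearMap.trace_eq_matrix_trace ℂ (Matrix.stdBasis ℂ (Fin n) (Fin n))]
  have hd : ∀ q : Fin n × Fin n, LinearMap.toMatrix (Matrix.stdBasis ℂ (Fin n) (Fin n))
      (Matrix.stdBasis ℂ (Fin n) (Fin n)) ((symm n).subtype.comp (T.comp (symmProj n))) q q =
      (2 : ℂ)⁻¹ * (A q.1 q.1 * A q.2 q.2 + A q.1 q.2 * A q.2 q.1) := by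
    rintro ⟨i, j⟩
    rw [LinearMap.toMatrix_apply, Matrix.stdBasis_eq_single]
    show (A * ((2 : ℂ)⁻¹ • (Matrix.single i j (1 : ℂ) + (Matrix.single i j (1 : ℂ))ᵀ)) * Aᵀ : Matrix (Fin n) (Fin n) ℂ) i j = _
    simp only [Matrix.transpose_single, Matrix.mul_smul, Matrix.smul_mul, Matrix.smul_apply, Matrix.mul_add,
      Matrix.add_mul, Matrix.add_apply, smul_eq_mul]
    congr 1
    simp [Matrix.mul_apply, Matrix.single_apply, ite_and]
  calc _ = ∑ q : Fin n × Fin n, (2 : ℂ)⁻¹ * (A q.1 q.1 * A q.2 q.2 + A q.1 q.2 * A q.2 q.1) :=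
        Finset.sum_congr rfl fun q _ => hd q
    _ = _ := by
      rw [← Finset.mul_sum, Fintype.sum_prod_type]
      simp only [Finset.sum_add_distrib, Matrix.trace, Matrix.diag, Matrix.mul_apply, ← Finset.mul_sum,
        ← Finset.sum_mul]
      rw [div_eq_inv_mul]

/-- The symmetric square of a character. -/
theorem isCharacter_sym {χ : G → ℂ} (h : Cfsg.IsCharacter G χ) :
    Cfsg.IsCharacter G (fun g => (χ g * χ g + χ (g * g)) / 2) := by
  obtain ⟨n, ρ, rfl⟩ := h
  have e : (fun g => (ρ.character g * ρ.character g + ρ.character (g * g)) / 2) = (symmRep (matHom ρ)).character := by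
    funext g
    show _ = LinearMap.trace ℂ (symm n) ((congAct (matHom ρ g)).restrict fun _ hM => congAct_mem hM)
    rw [trace_symm, ← map_mul, ← congrFun (trace_matHom ρ) g, ← congrFun (trace_matHom ρ) (g * g)]
  rw [e]
  exact CfsgLib.CharBasics.isCharacter_rep _

end CfsgLib.ValueGapFour
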