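import Cfsg.Agent.CharBasics.Ortho
import Cfsg.Agent.CharBasics.Abstract
import Cfsg.Agent.CharBasics.RealOddDegree
import Cfsg.Agent.Clifford.LinChar
import Cfsg.Agent.Clifford.EigenProd
import Cfsg.Agent.DegPred.AltSquare
import Cfsg.Agent.ValueGapFour.SymSquare

/-!
# Groups with an element at which every character value is `χ(1) - 4` or zero

Linear characters, small constituents, and the square map on characters of degree three.
-/

set_option autoImplicit false
set_option linter.unusedSectionVars false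
set_option linter.style.haveILetI false

namespace CfsgLib.ValueGapFour

open Cfsg CfsgLib.CharBasics CfsgLib.RealOdd
open scoped ComplexConjugate

universe u

variable {G : Type u} [Group G]

/-- Every non-principal value at `u` is the degree minus four, or zero. -/
def Gap (u : G) : Prop :=
  u ≠ 1 ∧ ∀ χ : IrrCharacter G, (χ : G → ℂ) ≠ (fun _ => (1 : ℂ)) →
    (χ : G → ℂ) u = (charDegree (χ : G → ℂ) : ℂ) - 4 ∨ (χ : G → ℂ) u = 0

theorem apply_one_irr (χ : IrrCharacter G) : (χ : G → ℂ) 1 = (charDegree (χ : G → ℂ) : ℂ) :=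
  apply_one (isCharacter_of_irr χ.2)

theorem gap_of (u : G) (hu : u ≠ 1) (hyp : ∀ χ : IrrCharacter G, (χ : G → ℂ) ≠ (fun _ => (1 : ℂ)) →
    ((χ : G → ℂ) 1 - (χ : G → ℂ) u = 4 ∨ (χ : G → ℂ) u = 0)) : Gap u :=
  ⟨hu, fun χ hχ => (hyp χ hχ).imp (fun h => by rw [apply_one_irr] at h; linear_combination -h) id⟩

variable [Fintype G] {u : G}

theorem hom_eq_one (h : Gap u) (μ : G →* ℂ) (g : G) : μ g = 1 := by
  by_contra hne
  have hirr := isIrr_hom μ
  have hd : ((charDegree (fun a => μ a) : ℕ) : ℂ) = 1 := by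
    rw [← apply_one (isCharacter_of_irr hirr)]
    exact map_one μ
  have hn := hom_norm μ u
  rcases h.2 ⟨_, hirr⟩ (fun e => hne (congrFun e g)) with h1 | h1
  · have h2 : μ u = -3 := by
      have h3 : μ u = (charDegree (fun a => μ a) : ℂ) - 4 := h1
      rw [hd] at h3
      rw [h3]; norm_num
    rw [h2] at hn
    norm_num at hn
  · have h2 : μ u = 0 := h1
    rw [h2] at hn
    norm_num at hn

theorem perfect (h : Gap u) : commutator G = ⊤ := by
  by_contra hne
  obtain ⟨g, hg⟩ : ∃ g : G, g ∉ commutator G := by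
    by_contra hc
    push Not at hc
    exact hne (eq_top_iff.2 fun x _ => hc x)
  haveI : Finite (Abelianization G) := Finite.of_surjective Abelianization.of Quotient.mk_surjective
  have ha : Abelianization.of g ≠ 1 := fun e => hg (by
    rw [← Abelianization.ker_of, MonoidHom.mem_ker]; exact e)
  haveI : NeZero (Monoid.exponent (Abelianization G)) :=
    ⟨Monoid.ExponentExists.exponent_ne_zero Monoid.ExponentExists.of_finite⟩
  obtain ⟨φ, hφ⟩ := CommGroup.exists_apply_ne_one_of_hasEnoughRootsOfUnity (Abelianization G) ℂ ha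
  apply hφ
  exact Units.ext (hom_eq_one h ((Units.coeHom ℂ).comp (φ.comp Abelianization.of)) g)

theorem linear_eq_one (h : Gap u) {η : G → ℂ} (hη : IsIrrCharacter G η) (h1 : charDegree η = 1) :
    η = fun _ => 1 := by
  obtain ⟨μ, hμ⟩ := Clifford.exists_hom_of_linear (isCharacter_of_irr hη)
    (by rw [apply_one (isCharacter_of_irr hη), h1, Nat.cast_one])
  funext g
  rw [hμ]
  exact hom_eq_one h μ g

theorem two_le_deg (h : Gap u) {η : G → ℂ} (hη : IsIrrCharacter G η) (hne : η ≠ fun _ => 1) :
    2 ≤ charDegree η := by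
  have h0 := charDegree_pos hη
  by_contra hc
  exact hne (linear_eq_one h hη (by omega))

theorem inner_self_sum {r : ℕ} (F : Fin r → G → ℂ) (hF : ∀ i, IsIrrCharacter G (F i)) (i : Fin r) :
    classInner (∑ j, F j) (F i) ≠ 0 := by
  classical
  rw [classInner_sum_left]
  intro h0
  have h1 : ∀ j, classInner (F j) (F i) = if F j = F i then 1 else 0 := fun j => by
    by_cases h : F j = F i
    · rw [if_pos h, h, classInner_self (hF i)]
    · rw [if_neg h, classInner_ne (hF j) (hF i) h]
  rw [Finset.sum_congr rfl (fun j _ => h1 j), Finset.sum_boole, Nat.cast_eq_zero,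
    Finset.card_eq_zero] at h0
  exact Finset.eq_empty_iff_forall_notMem.1 h0 i (by simp)

theorem exists_eq_of_inner {r : ℕ} (F : Fin r → G → ℂ) (hF : ∀ i, IsIrrCharacter G (F i)) {η : G → ℂ}
    (hη : IsIrrCharacter G η) (hne : classInner (∑ j, F j) η ≠ 0) : ∃ i, F i = η := by
  by_contra hc
  push Not at hc
  apply hne
  rw [classInner_sum_left]
  exact Finset.sum_eq_zero fun j _ => classInner_ne (hF j) hη (hc j)

/-- Removing a constituent leaves a character. -/
theorem sub_irr {f η : G → ℂ} (hf : IsCharacter G f) (hη : IsIrrCharacter G η) (hne : classInner f η ≠ 0) :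
    IsCharacter G (fun g => f g - η g) := by
  classical
  obtain ⟨r, F, hF, rfl⟩ := exists_decomp hf
  obtain ⟨i, rfl⟩ := exists_eq_of_inner F hF hη hne
  have e : (fun g => (∑ j, F j) g - F i g) = ∑ j ∈ Finset.univ.erase i, F j := by
    funext g
    rw [← Finset.add_sum_erase _ _ (Finset.mem_univ i)]
    simp [Pi.add_apply]
  rw [e]
  exact isCharacter_sum _ _ fun j _ => isCharacter_of_irr (hF j)

theorem inner_sub_left (f f' η : G → ℂ) :
    classInner (fun g => f g - f' g) η = classInner f η - classInner f' η := by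
  simp only [classInner_eq, sub_mul, Finset.sum_sub_distrib, mul_sub]

theorem inner_mul_left (f ψ η : G → ℂ) :
    classInner (fun g => f g * ψ g) η = classInner f (fun g => η g * conj (ψ g)) := by
  simp only [classInner_eq, map_mul, Complex.conj_conj]
  congr 1
  exact Finset.sum_congr rfl fun g _ => by ring

/-- Two characters with a common constituent are not orthogonal. -/
theorem inner_ne_zero {f f' η : G → ℂ} (hf : IsCharacter G f) (hf' : IsCharacter G f') (hη : IsIrrCharacter G η)
    (h : classInner f η ≠ 0) (h' : classInner f' η ≠ 0) : classInner f f' ≠ 0 := by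
  have e : f = fun g => η g + (f g - η g) := by funext g; ring
  obtain ⟨m, hm⟩ := classInner_characters_nat (sub_irr hf hη h) hf'
  obtain ⟨k, hk⟩ := classInner_characters_nat (isCharacter_of_irr hη) hf'
  have hk0 : k ≠ 0 := fun h0 => h' (by rw [classInner_comm, map_eq_zero, hk, h0, Nat.cast_zero])
  have h2 : classInner f f' = ((k + m : ℕ) : ℂ) := by
    have h1 : classInner f f' = classInner (fun g => η g) f' + classInner (fun g => f g - η g) f' := by
      conv_lhs => rw [e]
      exact classInner_add_left (fun g => η g) (fun g => f g - η g) f'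
    rw [h1, hm, hk, Nat.cast_add]
  rw [h2, Ne, Nat.cast_eq_zero]
  omega

/-- A constituent-free-of-`1` character with a positive value at `u` has a large constituent. -/
theorem exists_pos (h : Gap u) {f : G → ℂ} (hf : IsCharacter G f) (h0 : classInner f (fun _ => 1) = 0) {n : ℕ}
    (hn : f 1 = (n : ℂ)) (hv : 0 < (f u).re) :
    ∃ η : IrrCharacter G, (η : G → ℂ) ≠ (fun _ => 1) ∧ classInner f (η : G → ℂ) ≠ 0 ∧
      5 ≤ charDegree (η : G → ℂ) ∧ charDegree (η : G → ℂ) ≤ n ∧
      (η : G → ℂ) u = (charDegree (η : G → ℂ) : ℂ) - 4 ∧ (charDegree (η : G → ℂ) + 1 ≥ n → f = η) := by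
  obtain ⟨r, F, hF, rfl⟩ := exists_decomp hf
  have hne1 : ∀ i, F i ≠ fun _ => (1 : ℂ) := fun i e => inner_self_sum F hF i (by rw [e]; exact h0)
  have hd2 : ∀ i, 2 ≤ charDegree (F i) := fun i => two_le_deg h (hF i) (hne1 i)
  have hsum : ∑ i, charDegree (F i) = n := by
    rw [Finset.sum_apply, Finset.sum_congr rfl (fun i _ => apply_one (isCharacter_of_irr (hF i))),
      ← Nat.cast_sum, Nat.cast_inj] at hn
    exact hn
  obtain ⟨i, hi⟩ : ∃ i, 0 < (F i u).re := by
    by_contra hc
    push Not at hc
    rw [Finset.sum_apply, Complex.re_sum] at hv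
    exact absurd (Finset.sum_nonpos fun i _ => hc i) (not_le.2 hv)
  rcases h.2 ⟨F i, hF i⟩ (hne1 i) with h1 | h1
  swap
  · rw [show F i u = 0 from h1] at hi; simp at hi
  have hle : charDegree (F i) ≤ n :=
    (Finset.single_le_sum (f := fun j => charDegree (F j)) (fun j _ => Nat.zero_le _) (Finset.mem_univ i)).trans
      hsum.le
  have h5 : 5 ≤ charDegree (F i) := by
    rw [show F i u = (charDegree (F i) : ℂ) - 4 from h1] at hi
    have h4 : (4 : ℝ) < (charDegree (F i) : ℝ) := by simpa using hi
    exact_mod_cast h4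
  refine ⟨⟨F i, hF i⟩, hne1 i, inner_self_sum F hF i, h5, hle, h1, fun hbig => ?_⟩
  refine Fintype.sum_eq_single i fun j hj => ?_
  exfalso
  have h2 := Finset.add_le_sum (f := fun j => charDegree (F j)) (fun j _ => Nat.zero_le _) (Finset.mem_univ i)
    (Finset.mem_univ j) (Ne.symm hj)
  have := hd2 j
  change charDegree (F i) + 1 ≥ n at hbig
  rw [hsum] at h2
  omega

/-- A character without trivial constituent has no constituent of codegree one. -/
theorem no_deg_one (h : Gap u) {f : G → ℂ} (hf : IsCharacter G f) (h0 : classInner f (fun _ => 1) = 0)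
    (h1 : f 1 = 1) : False := by
  obtain ⟨r, F, hF, rfl⟩ := exists_decomp hf
  have hsum : ∑ i, charDegree (F i) = 1 := by
    rw [Finset.sum_apply, Finset.sum_congr rfl (fun i _ => apply_one (isCharacter_of_irr (hF i))),
      ← Nat.cast_sum, Nat.cast_eq_one] at h1
    exact h1
  rcases Nat.eq_zero_or_pos r with rfl | hr
  · simp at hsum
  have h2 := two_le_deg h (hF ⟨0, hr⟩) fun e => inner_self_sum F hF ⟨0, hr⟩ (by rw [e]; exact h0)
  have h3 := Finset.single_le_sum (f := fun j => charDegree (F j)) (fun j _ => Nat.zero_le _)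
    (Finset.mem_univ (⟨0, hr⟩ : Fin r))
  omega

theorem inner_one_mul_star (χ : IrrCharacter G) :
    classInner (fun g => (χ : G → ℂ) g * conj ((χ : G → ℂ) g)) (fun _ => 1) = 1 := by
  rw [inner_mul_left]
  have e : (fun g => (1 : ℂ) * conj (conj ((χ : G → ℂ) g))) = (χ : G → ℂ) := by funext g; simp
  rw [e]
  exact classInner_self χ.2

/-- No nonprincipal character of degree two is nonzero at `u`. -/
theorem deg_ne_two (h : Gap u) (χ : IrrCharacter G) (hne : (χ : G → ℂ) ≠ fun _ => 1) (hu : (χ : G → ℂ) u ≠ 0) :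
    charDegree (χ : G → ℂ) ≠ 2 := by
  intro h2
  have hv : (χ : G → ℂ) u = -2 := by
    rcases h.2 χ hne with h1 | h1
    · rw [h1, h2]; norm_num
    · exact absurd h1 hu
  have hc : IsCharacter G (fun g => (χ : G → ℂ) g * conj ((χ : G → ℂ) g)) :=
    isCharacter_mul (isCharacter_of_irr χ.2) (isCharacter_star (isCharacter_of_irr χ.2))
  have h1i := inner_one_mul_star χ
  have hg := sub_irr hc isIrrCharacter_one (by rw [h1i]; exact one_ne_zero)
  obtain ⟨η, -, -, h5, hle, -, -⟩ := exists_pos h hg (by
      rw [inner_sub_left, h1i, classInner_self isIrrCharacter_one, sub_self]) (n := 3)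
    (by simp only [apply_one_irr, h2, Complex.conj_natCast]; norm_num)
    (by simp only [hv, map_neg, Complex.conj_ofNat]; norm_num)
  omega

/-- The value of a character of degree three at a square. -/
theorem sq_value (h : Gap u) (χ : IrrCharacter G) (h3 : charDegree (χ : G → ℂ) = 3) (g : G) :
    (χ : G → ℂ) (g * g) = (χ : G → ℂ) g * (χ : G → ℂ) g - 2 * conj ((χ : G → ℂ) g) := by
  obtain ⟨n, ρ, hρ, hρχ⟩ := χ.2
  have hn : n = 3 := by
    rw [← h3, ← hρχ, CharBasics.charDegree_rep, Module.finrank_fin_fun]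
  have hm : orderOf g ≠ 0 := (orderOf_pos g).ne'
  obtain ⟨ι, hι, μ, hcard, hμ, hdet, htr⟩ := EigenProd.exists_eigenbasis (A := ρ g) hm
    (by rw [← map_pow, pow_orderOf_eq_one, map_one])
  rw [Module.finrank_fin_fun, hn] at hcard
  let e : Fin 3 ≃ ι := (Fintype.equivFinOfCardEq hcard).symm
  set a := μ (e 0) with ha
  set b := μ (e 1) with hb
  set c := μ (e 2) with hc
  have hprod : a * b * c = 1 := by
    have h1 : LinearMap.det (ρ g) = 1 := hom_eq_one h ((LinearMap.det : Module.End ℂ (Fin n → ℂ) →* ℂ).comp ρ) g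
    rw [hdet, ← Equiv.prod_comp e μ, Fin.prod_univ_three] at h1
    exact h1
  have hnorm : ∀ i, conj (μ i) = (μ i)⁻¹ := fun i =>
    (Complex.inv_eq_conj (Complex.norm_eq_one_of_pow_eq_one (hμ i) hm)).symm
  have hv1 : (χ : G → ℂ) g = a + b + c := by
    rw [← hρχ, Representation.character, ← pow_one (ρ g), htr, ← Equiv.sum_comp e, Fin.sum_univ_three]
    simp [ha, hb, hc]
  have hv2 : (χ : G → ℂ) (g * g) = a ^ 2 + b ^ 2 + c ^ 2 := by
    rw [← hρχ, Representation.character, map_mul, ← pow_two, htr, ← Equiv.sum_comp e, Fin.sum_univ_three]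
  have ia : a⁻¹ = b * c := inv_eq_of_mul_eq_one_right (by rw [← hprod]; ring)
  have ib : b⁻¹ = a * c := inv_eq_of_mul_eq_one_right (by rw [← hprod]; ring)
  have ic : c⁻¹ = a * b := inv_eq_of_mul_eq_one_right (by rw [← hprod]; ring)
  rw [hv2, hv1, map_add, map_add, ha, hb, hc, hnorm, hnorm, hnorm, ← ha, ← hb, ← hc, ia, ib, ic]
  ring

end CfsgLib.ValueGapFour
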