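import Cfsg.Agent.ValueGapFour.Basic
import Cfsg.Agent.ThreeDeg.Product

/-!
# The characters that do not vanish at `u`: two of degree three and one of degree five
-/

set_option autoImplicit false
set_option linter.unusedSectionVars false
set_option linter.style.haveILetI false

namespace CfsgLib.ValueGapFour

open Cfsg CfsgLib.CharBasics
open scoped ComplexConjugate

universe u

variable {G : Type u} [Group G] [Fintype G] [Fintype (IrrCharacter G)] {u : G}

/-- The degree three characters not vanishing at `u`. -/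
noncomputable def threes (u : G) : Finset (IrrCharacter G) :=
  haveI := Classical.decPred fun χ : IrrCharacter G => charDegree (χ : G → ℂ) = 3 ∧ (χ : G → ℂ) u ≠ 0
  Finset.univ.filter fun χ : IrrCharacter G => charDegree (χ : G → ℂ) = 3 ∧ (χ : G → ℂ) u ≠ 0

theorem mem_threes {χ : IrrCharacter G} :
    χ ∈ threes u ↔ charDegree (χ : G → ℂ) = 3 ∧ (χ : G → ℂ) u ≠ 0 := by
  simp [threes]

/-- The large characters not vanishing at `u`. -/
noncomputable def larges (u : G) : Finset (IrrCharacter G) :=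
  haveI := Classical.decPred fun χ : IrrCharacter G => 5 ≤ charDegree (χ : G → ℂ) ∧ (χ : G → ℂ) u ≠ 0
  Finset.univ.filter fun χ : IrrCharacter G => 5 ≤ charDegree (χ : G → ℂ) ∧ (χ : G → ℂ) u ≠ 0

theorem mem_larges {χ : IrrCharacter G} :
    χ ∈ larges u ↔ 5 ≤ charDegree (χ : G → ℂ) ∧ (χ : G → ℂ) u ≠ 0 := by
  simp [larges]

theorem threes_value (h : Gap u) {χ : IrrCharacter G} (hχ : χ ∈ threes u) :
    (χ : G → ℂ) ≠ (fun _ => (1 : ℂ)) ∧ (χ : G → ℂ) 1 = 3 ∧ (χ : G → ℂ) u = -1 := by
  obtain ⟨h3, hu⟩ := mem_threes.1 hχ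
  have h1 : (χ : G → ℂ) 1 = 3 := by rw [apply_one_irr, h3]; norm_num
  have hne : (χ : G → ℂ) ≠ fun _ => (1 : ℂ) := fun e => by
    rw [congrFun e 1] at h1
    norm_num at h1
  refine ⟨hne, h1, ?_⟩
  rcases h.2 χ hne with e | e
  · rw [e, h3]; norm_num
  · exact absurd e hu

theorem inner_three_one (h : Gap u) {χ : IrrCharacter G} (hχ : χ ∈ threes u) :
    classInner (χ : G → ℂ) (fun _ => 1) = 0 :=
  classInner_ne χ.2 isIrrCharacter_one (threes_value h hχ).1

/-- Column orthogonality at `u`. -/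
theorem cent (h : Gap u) :
    (Nat.card (Subgroup.centralizer ({u} : Set G)) : ℤ) + 4 * ∑ χ ∈ larges u, ((charDegree (χ : G → ℂ) : ℤ) - 4)
      = 4 * (threes u).card := by
  classical
  have hc := sum_col u u
  rw [if_pos (IsConj.refl u)] at hc
  have hd := sum_mul_degree h.1
  have key : ∀ χ : IrrCharacter G,
      (χ : G → ℂ) u * conj ((χ : G → ℂ) u) - (charDegree (χ : G → ℂ) : ℂ) * (χ : G → ℂ) u =
        (if χ ∈ threes u then 4 else 0) - (if χ ∈ larges u then 4 * ((charDegree (χ : G → ℂ) : ℂ) - 4) else 0) := by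
    intro χ
    by_cases h1 : (χ : G → ℂ) = fun _ => (1 : ℂ)
    · have hd1 : charDegree (χ : G → ℂ) = 1 := by
        have e := apply_one_irr χ
        rw [congrFun h1 1] at e
        exact_mod_cast e.symm
      rw [if_neg (fun hm => by have := (mem_threes.1 hm).1; omega),
        if_neg (fun hm => by have := (mem_larges.1 hm).1; omega), congrFun h1 u, hd1]
      simp
    by_cases h0 : (χ : G → ℂ) u = 0
    · rw [if_neg (fun hm => (mem_threes.1 hm).2 h0), if_neg (fun hm => (mem_larges.1 hm).2 h0), h0]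
      simp
    have hv := (h.2 χ h1).resolve_right h0
    have h2 := deg_ne_two h χ h1 h0
    have h2' := two_le_deg h χ.2 h1
    have h4 : charDegree (χ : G → ℂ) ≠ 4 := fun e => h0 (by rw [hv, e]; norm_num)
    rw [hv, map_sub, Complex.conj_natCast, Complex.conj_ofNat]
    rcases Nat.lt_or_ge (charDegree (χ : G → ℂ)) 5 with hlt | hge
    · have h3 : charDegree (χ : G → ℂ) = 3 := by omega
      rw [if_pos (mem_threes.2 ⟨h3, h0⟩), if_neg (fun hm => by have := (mem_larges.1 hm).1; omega), h3]
      norm_num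
    · rw [if_neg (fun hm => by have := (mem_threes.1 hm).1; omega), if_pos (mem_larges.2 ⟨hge, h0⟩)]
      ring
  have hsum := Finset.sum_congr (s₁ := (Finset.univ : Finset (IrrCharacter G))) rfl fun χ _ => key χ
  rw [Finset.sum_sub_distrib, hc, hd, sub_zero, Finset.sum_sub_distrib, Finset.sum_ite_mem, Finset.sum_ite_mem,
    Finset.univ_inter, Finset.univ_inter, Finset.sum_const, nsmul_eq_mul] at hsum
  have h2 : ((Nat.card (Subgroup.centralizer ({u} : Set G)) : ℤ) : ℂ) +
      ((4 * ∑ χ ∈ larges u, ((charDegree (χ : G → ℂ) : ℤ) - 4) : ℤ) : ℂ) = ((4 * (threes u).card : ℤ) : ℂ) := by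
    push_cast
    rw [hsum, Finset.mul_sum]
    ring
  exact_mod_cast h2

theorem isCharacter_prod {χ ψ : G → ℂ} (h : IsCharacter G χ) (h' : IsCharacter G ψ) :
    IsCharacter G (fun g => χ g * ψ g) := Clifford.isCharacter_mul h h'

theorem inner_prod_one {χ ψ : IrrCharacter G} (hne : (χ : G → ℂ) ≠ fun g => conj ((ψ : G → ℂ) g)) :
    classInner (fun g => (χ : G → ℂ) g * (ψ : G → ℂ) g) (fun _ => 1) = 0 := by
  rw [inner_mul_left]
  simp only [one_mul]
  exact classInner_ne χ.2 (ThreeDeg.irr_star ψ.2) hne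

theorem isCharacter_square_sub (h : Gap u) {χ : IrrCharacter G} (hχ : χ ∈ threes u) :
    IsCharacter G (fun g => (χ : G → ℂ) g * (χ : G → ℂ) g - conj ((χ : G → ℂ) g)) := by
  have e : (fun g => (χ : G → ℂ) g * (χ : G → ℂ) g - conj ((χ : G → ℂ) g)) =
      fun g => ((χ : G → ℂ) g * (χ : G → ℂ) g + (χ : G → ℂ) (g * g)) / 2 := by
    funext g
    rw [sq_value h χ (mem_threes.1 hχ).1 g]
    ring
  rw [e]
  exact isCharacter_sym (isCharacter_of_irr χ.2)

theorem centralizer_pos (u : G) : (0 : ℤ) < Nat.card (Subgroup.centralizer ({u} : Set G)) :=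
  Int.natCast_pos.2 Nat.card_pos

theorem large_weight {η : IrrCharacter G} (hη : η ∈ larges u) : 1 ≤ (charDegree (η : G → ℂ) : ℤ) - 4 := by
  have := (mem_larges.1 hη).1
  omega

/-- The degree three characters not vanishing at `u` are real. -/
theorem real (h : Gap u) {χ : IrrCharacter G} (hχ : χ ∈ threes u) (g : G) :
    conj ((χ : G → ℂ) g) = (χ : G → ℂ) g := by
  classical
  by_contra hg
  obtain ⟨hne, h1, hv⟩ := threes_value h hχ
  have hnr : (χ : G → ℂ) ≠ fun g => conj ((χ : G → ℂ) g) := fun e => hg (congrFun e g).symm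
  let χb : IrrCharacter G := ⟨fun g => conj ((χ : G → ℂ) g), ThreeDeg.irr_star χ.2⟩
  have hχb : χb ∈ threes u := by
    refine mem_threes.2 ⟨?_, ?_⟩
    · have e := apply_one_irr χb
      have e2 : (χb : G → ℂ) 1 = 3 := by
        show conj ((χ : G → ℂ) 1) = 3
        rw [h1, Complex.conj_ofNat]
      rw [e2] at e
      exact_mod_cast e.symm
    · show conj ((χ : G → ℂ) u) ≠ 0
      rw [hv]; norm_num
  have hS := isCharacter_square_sub h hχ
  have hS0 : classInner (fun g => (χ : G → ℂ) g * (χ : G → ℂ) g - conj ((χ : G → ℂ) g)) (fun _ => 1) = 0 := by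
    rw [inner_sub_left, inner_prod_one hnr, zero_sub, neg_eq_zero]
    exact inner_three_one h hχb
  obtain ⟨σ, hσne, hσi, hσ5, hσ6, hσv, hσeq⟩ := exists_pos h hS hS0 (n := 6)
    (by simp only [h1, Complex.conj_ofNat]; norm_num) (by simp only [hv]; norm_num)
  have hSσ := hσeq (by omega)
  have hσd : charDegree (σ : G → ℂ) = 6 := by
    have e := congrFun hSσ 1
    simp only [h1, Complex.conj_ofNat, apply_one_irr] at e
    norm_num at e
    exact_mod_cast e.symm
  have hσu : (σ : G → ℂ) u ≠ 0 := by rw [hσv, hσd]; norm_num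
  have hσb : (σ : G → ℂ) ≠ (χb : G → ℂ) := fun e => by
    rw [e, (mem_threes.1 hχb).1] at hσd
    omega
  have hsq : (fun g => (χ : G → ℂ) g * (χ : G → ℂ) g) = fun g => (χb : G → ℂ) g + (σ : G → ℂ) g := by
    funext g
    rw [← congrFun hSσ g]
    show _ = conj ((χ : G → ℂ) g) + _
    ring
  set P := fun g => (χ : G → ℂ) g * conj ((χ : G → ℂ) g) with hP
  have hP1 : classInner P (fun _ => 1) = 1 := inner_one_mul_star χ
  have hΘc := sub_irr (isCharacter_prod (isCharacter_of_irr χ.2) (isCharacter_star (isCharacter_of_irr χ.2)))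
    isIrrCharacter_one (by rw [hP1]; exact one_ne_zero)
  have hnorm : classInner P P = 2 := by
    have e : classInner P P = classInner (fun g => (χ : G → ℂ) g * (χ : G → ℂ) g)
        (fun g => (χ : G → ℂ) g * (χ : G → ℂ) g) := by
      simp only [classInner_eq, hP, map_mul, Complex.conj_conj]
      congr 1
      exact Finset.sum_congr rfl fun g _ => by ring
    rw [e, hsq]
    have e1 : classInner (fun g => (χb : G → ℂ) g + (σ : G → ℂ) g) (fun g => (χb : G → ℂ) g + (σ : G → ℂ) g) =
        classInner (χb : G → ℂ) (χb : G → ℂ) + classInner (σ : G → ℂ) (χb : G → ℂ) +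
          (classInner (χb : G → ℂ) (σ : G → ℂ) + classInner (σ : G → ℂ) (σ : G → ℂ)) := by
      simp only [classInner_eq, map_add, add_mul, mul_add, Finset.sum_add_distrib]
    rw [e1, classInner_self χb.2, classInner_self σ.2, classInner_ne σ.2 χb.2 hσb,
      classInner_ne χb.2 σ.2 (Ne.symm hσb)]
    norm_num
  have hΘirr : IsIrrCharacter G (fun g => P g - 1) := by
    refine isIrr_of_norm_one hΘc ?_
    have e : classInner (fun g => P g - 1) (fun g => P g - 1) = classInner P P - classInner P (fun _ => 1)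
        - (classInner (fun _ => 1) P - classInner (fun _ : G => (1 : ℂ)) (fun _ => 1)) := by
      simp only [classInner_eq, map_sub, map_one, sub_mul, mul_sub, Finset.sum_sub_distrib]
      ring
    rw [e, hnorm, hP1, classInner_comm P (fun _ => (1 : ℂ)), hP1, classInner_self isIrrCharacter_one, map_one]
    norm_num
  have hdisj : ∀ ψ ψ' : IrrCharacter G, ψ ∈ threes u → ψ' ∈ threes u → ψ ≠ ψ' →
      classInner (fun g => (χ : G → ℂ) g * (ψ : G → ℂ) g) (fun g => (χ : G → ℂ) g * (ψ' : G → ℂ) g) = 0 := by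
    intro ψ ψ' hψ hψ' hdiff
    set f := fun g => (ψ' : G → ℂ) g * conj ((ψ : G → ℂ) g) with hf
    have hfc : IsCharacter G f := isCharacter_prod (isCharacter_of_irr ψ'.2) (isCharacter_star (isCharacter_of_irr ψ.2))
    have hf1 : classInner f (fun _ => 1) = 0 := by
      rw [hf, inner_mul_left]
      simp only [one_mul, Complex.conj_conj]
      exact classInner_ne ψ'.2 ψ.2 fun e => hdiff (Subtype.ext e.symm)
    have e : classInner (fun g => (χ : G → ℂ) g * (ψ : G → ℂ) g) (fun g => (χ : G → ℂ) g * (ψ' : G → ℂ) g)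
        = classInner (fun g => P g - 1) f + classInner (fun _ : G => (1 : ℂ)) f := by
      simp only [classInner_eq, hP, hf, map_mul, Complex.conj_conj, ← mul_add, ← Finset.sum_add_distrib]
      congr 1
      exact Finset.sum_congr rfl fun g _ => by ring
    rw [e, classInner_comm f (fun _ => (1 : ℂ)), hf1, map_zero, add_zero]
    by_contra hΘ
    have hΘ' : classInner f (fun g => P g - 1) ≠ 0 := ThreeDeg.inner_swap hΘ
    refine no_deg_one h (sub_irr hfc hΘirr hΘ') ?_ ?_
    · rw [inner_sub_left, hf1, zero_sub, neg_eq_zero]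
      show classInner (fun g => P g - 1) (fun _ => 1) = 0
      rw [inner_sub_left, hP1, classInner_self isIrrCharacter_one, sub_self]
    · simp only [hf, hP, (threes_value h hψ).2.1, (threes_value h hψ').2.1, h1, Complex.conj_ofNat]
      norm_num
  have hE : ∀ ψ ∈ (threes u).erase χb, ∃ η : IrrCharacter G, η ∈ larges u ∧
      classInner (fun g => (χ : G → ℂ) g * (ψ : G → ℂ) g) (η : G → ℂ) ≠ 0 ∧ (ψ = χ → η = σ) := by
    intro ψ hψ
    obtain ⟨hψb, hψ⟩ := Finset.mem_erase.1 hψ
    have hne' : (χ : G → ℂ) ≠ fun g => conj ((ψ : G → ℂ) g) := fun e => hψb (Subtype.ext (by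
      show (ψ : G → ℂ) = fun g => conj ((χ : G → ℂ) g)
      funext g
      rw [congrFun e g, Complex.conj_conj]))
    obtain ⟨η, hη1, hηi, hη5, -, hηv, -⟩ := exists_pos h
      (isCharacter_prod (isCharacter_of_irr χ.2) (isCharacter_of_irr ψ.2)) (inner_prod_one hne') (n := 9)
      (by simp only [(threes_value h hψ).2.1, h1]; norm_num)
      (by simp only [(threes_value h hψ).2.2, hv]; norm_num)
    refine ⟨η, mem_larges.2 ⟨hη5, ?_⟩, hηi, fun hψχ => ?_⟩
    · rw [hηv]
      intro e
      have : charDegree (η : G → ℂ) = 4 := by exact_mod_cast sub_eq_zero.1 e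
      omega
    · subst hψχ
      by_contra hησ
      apply hηi
      rw [hsq]
      have e1 : classInner (fun g => (χb : G → ℂ) g + (σ : G → ℂ) g) (η : G → ℂ) =
          classInner (χb : G → ℂ) (η : G → ℂ) + classInner (σ : G → ℂ) (η : G → ℂ) :=
        classInner_add_left (χb : G → ℂ) (σ : G → ℂ) (η : G → ℂ)
      rw [e1, classInner_ne χb.2 η.2 (fun e => by
          rw [← e, (mem_threes.1 hχb).1] at hη5
          omega),
        classInner_ne σ.2 η.2 (fun e => hησ (Subtype.ext e.symm)), add_zero]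
  choose E hEl hEi hEσ using hE
  have hinj : Set.InjOn (fun x : {x // x ∈ (threes u).erase χb} => E x.1 x.2)
      (((threes u).erase χb).attach : Set _) := by
    rintro ⟨ψ, hψ⟩ - ⟨ψ', hψ'⟩ - he
    simp only at he
    by_contra hd
    have hd' : ψ ≠ ψ' := fun e => hd (Subtype.ext e)
    refine inner_ne_zero (isCharacter_prod (isCharacter_of_irr χ.2) (isCharacter_of_irr ψ.2))
      (isCharacter_prod (isCharacter_of_irr χ.2) (isCharacter_of_irr ψ'.2)) (E ψ hψ).2 (hEi ψ hψ) ?_
      (hdisj ψ ψ' (Finset.mem_of_mem_erase hψ) (Finset.mem_of_mem_erase hψ') hd')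
    rw [he]
    exact hEi ψ' hψ'
  have hχmem : χ ∈ (threes u).erase χb :=
    Finset.mem_erase.2 ⟨fun e => hnr (congrArg Subtype.val e), hχ⟩
  have hlow : ((threes u).card : ℤ) ≤ ∑ η ∈ larges u, ((charDegree (η : G → ℂ) : ℤ) - 4) := by
    have hsub : ((threes u).erase χb).attach.image (fun x => E x.1 x.2) ⊆ larges u := fun η hη => by
      obtain ⟨x, -, rfl⟩ := Finset.mem_image.1 hη
      exact hEl x.1 x.2
    refine le_trans ?_ (Finset.sum_le_sum_of_subset_of_nonneg hsub fun η hη _ => by
      have := large_weight hη; omega)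
    rw [Finset.sum_image hinj, ← Finset.add_sum_erase _ _ (Finset.mem_attach _ ⟨χ, hχmem⟩)]
    simp only [hEσ χ hχmem rfl, hσd]
    have hlb := Finset.card_nsmul_le_sum (((threes u).erase χb).attach.erase ⟨χ, hχmem⟩)
      (fun x => ((charDegree ((E x.1 x.2 : IrrCharacter G) : G → ℂ) : ℤ) - 4)) 1 fun x _ => large_weight (hEl x.1 x.2)
    rw [Finset.card_erase_of_mem (Finset.mem_attach _ _), Finset.card_attach, Finset.card_erase_of_mem hχb,
      nsmul_eq_mul, mul_one] at hlb
    have hb2 : 2 ≤ (threes u).card := by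
      have := Finset.card_pos.2 ⟨χ, hχmem⟩
      rw [Finset.card_erase_of_mem hχb] at this
      omega
    have hcast : (((threes u).card - 1 - 1 : ℕ) : ℤ) = ((threes u).card : ℤ) - 2 := by omega
    rw [hcast] at hlb
    push_cast
    linarith
  have := cent h
  have := centralizer_pos u
  linarith

/-- The degree five constituent of the square. -/
theorem exists_five (h : Gap u) {χ : IrrCharacter G} (hχ : χ ∈ threes u) :
    ∃ F : IrrCharacter G, F ∈ larges u ∧ charDegree (F : G → ℂ) = 5 ∧ (F : G → ℂ) u = 1 ∧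
      ∀ g, (F : G → ℂ) g = (χ : G → ℂ) g * (χ : G → ℂ) g - (χ : G → ℂ) g - 1 := by
  obtain ⟨hne, h1, hv⟩ := threes_value h hχ
  have hS := isCharacter_square_sub h hχ
  simp only [real h hχ] at hS
  have hS1 : classInner (fun g => (χ : G → ℂ) g * (χ : G → ℂ) g - (χ : G → ℂ) g) (fun _ => 1) = 1 := by
    rw [inner_sub_left, inner_mul_left, inner_three_one h hχ, sub_zero]
    simp only [one_mul, real h hχ]
    exact classInner_self χ.2
  have hF := sub_irr hS isIrrCharacter_one (by rw [hS1]; exact one_ne_zero)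
  obtain ⟨F, -, -, h5, hle, hval, heq⟩ := exists_pos h hF
    (by rw [inner_sub_left, hS1, classInner_self isIrrCharacter_one, sub_self]) (n := 5)
    (by simp only [h1]; norm_num) (by simp only [hv]; norm_num)
  have hd : charDegree (F : G → ℂ) = 5 := by omega
  have hu : (F : G → ℂ) u = 1 := by rw [hval, hd]; norm_num
  refine ⟨F, mem_larges.2 ⟨h5, by rw [hu]; norm_num⟩, hd, hu, fun g => ?_⟩
  rw [← congrFun (heq (by omega)) g]

/-- The degree five constituent is the same for all. -/
theorem five_eq (h : Gap u) {χ ψ : IrrCharacter G} (hχ : χ ∈ threes u) (hψ : ψ ∈ threes u) {F F' : IrrCharacter G}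
    (hF5 : charDegree (F : G → ℂ) = 5) (hF : ∀ g, (F : G → ℂ) g = (χ : G → ℂ) g * (χ : G → ℂ) g - (χ : G → ℂ) g - 1)
    (hF5' : charDegree (F' : G → ℂ) = 5)
    (hF' : ∀ g, (F' : G → ℂ) g = (ψ : G → ℂ) g * (ψ : G → ℂ) g - (ψ : G → ℂ) g - 1) : F = F' := by
  by_contra hne
  have hχψ : (χ : G → ℂ) ≠ (ψ : G → ℂ) := fun e => hne (Subtype.ext (funext fun g => by rw [hF, hF', e]))
  have hc := isCharacter_mul (isCharacter_of_irr χ.2) (isCharacter_of_irr ψ.2)
  have hnorm : classInner ((χ : G → ℂ) * (ψ : G → ℂ)) ((χ : G → ℂ) * (ψ : G → ℂ)) = 1 := by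
    have e : classInner ((χ : G → ℂ) * (ψ : G → ℂ)) ((χ : G → ℂ) * (ψ : G → ℂ)) =
        classInner (fun _ : G => (1 : ℂ)) (fun _ => 1) + classInner (fun _ : G => (1 : ℂ)) (ψ : G → ℂ)
          + classInner (fun _ : G => (1 : ℂ)) (F' : G → ℂ)
        + (classInner (χ : G → ℂ) (fun _ => 1) + classInner (χ : G → ℂ) (ψ : G → ℂ)
          + classInner (χ : G → ℂ) (F' : G → ℂ))
        + (classInner (F : G → ℂ) (fun _ => 1) + classInner (F : G → ℂ) (ψ : G → ℂ)
          + classInner (F : G → ℂ) (F' : G → ℂ)) := by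
      simp only [classInner_eq, ← mul_add, ← Finset.sum_add_distrib]
      congr 1
      refine Finset.sum_congr rfl fun g _ => ?_
      simp only [Pi.mul_apply, hF, hF', map_mul, map_sub, map_one, real h hχ, real h hψ]
      ring
    have one_ne : ∀ η : IrrCharacter G, charDegree (η : G → ℂ) ≠ 1 → (η : G → ℂ) ≠ fun _ => 1 := fun η hη e => hη (by
      have e2 := apply_one_irr η
      rw [congrFun e 1] at e2
      exact_mod_cast e2.symm)
    rw [e, classInner_self isIrrCharacter_one, classInner_ne isIrrCharacter_one ψ.2 (threes_value h hψ).1.symm,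
      classInner_ne isIrrCharacter_one F'.2 (one_ne F' (by omega)).symm, inner_three_one h hχ,
      classInner_ne χ.2 ψ.2 hχψ, classInner_ne χ.2 F'.2 (fun e => by
        have := (mem_threes.1 hχ).1
        rw [e] at this
        omega), classInner_ne F.2 isIrrCharacter_one (one_ne F (by omega)), classInner_ne F.2 ψ.2 (fun e => by
        rw [e, (mem_threes.1 hψ).1] at hF5
        omega), classInner_ne F.2 F'.2 (fun e => hne (Subtype.ext e))]
    norm_num
  have hirr := isIrr_of_norm_one hc hnorm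
  have hd : charDegree ((χ : G → ℂ) * (ψ : G → ℂ)) = 9 := by
    have e := apply_one hc
    rw [Pi.mul_apply, (threes_value h hχ).2.1, (threes_value h hψ).2.1] at e
    norm_num at e
    exact_mod_cast e.symm
  have hv : ((χ : G → ℂ) * (ψ : G → ℂ)) u = 1 := by
    rw [Pi.mul_apply, (threes_value h hχ).2.2, (threes_value h hψ).2.2]
    norm_num
  rcases h.2 ⟨_, hirr⟩ (fun e => by
      have e1 : ((χ : G → ℂ) * (ψ : G → ℂ)) 1 = 1 := congrFun e 1
      rw [apply_one hc, hd] at e1
      norm_num at e1) with e | e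
  · have e' : ((χ : G → ℂ) * (ψ : G → ℂ)) u = (charDegree ((χ : G → ℂ) * (ψ : G → ℂ)) : ℂ) - 4 := e
    rw [hv, hd] at e'
    norm_num at e'
  · have e' : ((χ : G → ℂ) * (ψ : G → ℂ)) u = 0 := e
    rw [hv] at e'
    norm_num at e'

/-- At most two characters of degree three. -/
theorem card_threes_le (h : Gap u) : (threes u).card ≤ 2 := by
  by_contra hc
  obtain ⟨χ, hχ, ψ, hψ, ω, hω, h12, h13, h23⟩ := Finset.two_lt_card.1 (not_le.1 hc)
  obtain ⟨F, -, hF5, -, hF⟩ := exists_five h hχ
  have hval : ∀ φ : IrrCharacter G, φ ∈ threes u → ∀ g, (F : G → ℂ) g = (φ : G → ℂ) g * (φ : G → ℂ) g - (φ : G → ℂ) g - 1 := by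
    intro φ hφ g
    obtain ⟨F', -, hF5', -, hF'⟩ := exists_five h hφ
    rw [five_eq h hχ hφ hF5 hF hF5' hF', hF']
  set A := fun g => ((F : G → ℂ) g * (F : G → ℂ) g - (F : G → ℂ) (g * g)) / 2 with hA
  have hAc : IsCharacter G A := DegPred.isCharacter_alt (isCharacter_of_irr F.2)
  have hAeq : ∀ φ : IrrCharacter G, φ ∈ threes u →
      A = fun g => (φ : G → ℂ) g * (F : G → ℂ) g - (F : G → ℂ) g := by
    intro φ hφ
    funext g
    simp only [hA, hval φ hφ]
    rw [sq_value h φ (mem_threes.1 hφ).1 g, real h hφ]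
    ring
  have hne5 : ∀ φ : IrrCharacter G, φ ∈ threes u → (φ : G → ℂ) ≠ (F : G → ℂ) := fun φ hφ e => by
    rw [← e, (mem_threes.1 hφ).1] at hF5
    omega
  have hF1 : (F : G → ℂ) ≠ fun _ => 1 := fun e => by
    have e2 := apply_one_irr F
    rw [congrFun e 1, hF5] at e2
    norm_num at e2
  have hAi : ∀ φ : IrrCharacter G, φ ∈ threes u → classInner A (φ : G → ℂ) = 1 := by
    intro φ hφ
    rw [hAeq φ hφ, inner_sub_left, classInner_ne F.2 φ.2 (hne5 φ hφ).symm, sub_zero]
    have e : classInner (fun g => (φ : G → ℂ) g * (F : G → ℂ) g) (φ : G → ℂ) =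
        classInner (F : G → ℂ) (fun _ => 1) + classInner (F : G → ℂ) (φ : G → ℂ)
          + classInner (F : G → ℂ) (F : G → ℂ) := by
      simp only [classInner_eq, ← mul_add, ← Finset.sum_add_distrib]
      congr 1
      refine Finset.sum_congr rfl fun g _ => ?_
      simp only [hval φ hφ, map_mul, map_sub, map_one, real h hφ]
      ring
    rw [e, classInner_ne F.2 isIrrCharacter_one hF1, classInner_ne F.2 φ.2 (hne5 φ hφ).symm, classInner_self F.2]
    norm_num
  have hA1 : classInner A (fun _ => 1) = 0 := by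
    rw [hAeq χ hχ, inner_sub_left, classInner_ne F.2 isIrrCharacter_one hF1, sub_zero, inner_prod_one]
    intro e
    have e1 := congrFun e 1
    rw [(threes_value h hχ).2.1, apply_one_irr, hF5, Complex.conj_natCast] at e1
    norm_num at e1
  have s1 := sub_irr hAc χ.2 (by rw [hAi χ hχ]; exact one_ne_zero)
  have i2 : classInner (fun g => A g - (χ : G → ℂ) g) (ψ : G → ℂ) = 1 := by
    rw [inner_sub_left, hAi ψ hψ, classInner_ne χ.2 ψ.2 (fun e => h12 (Subtype.ext e)), sub_zero]
  have s2 := sub_irr s1 ψ.2 (by rw [i2]; exact one_ne_zero)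
  have i3 : classInner (fun g => A g - (χ : G → ℂ) g - (ψ : G → ℂ) g) (ω : G → ℂ) = 1 := by
    rw [inner_sub_left, inner_sub_left, hAi ω hω, classInner_ne χ.2 ω.2 (fun e => h13 (Subtype.ext e)),
      classInner_ne ψ.2 ω.2 (fun e => h23 (Subtype.ext e)), sub_zero, sub_zero]
  have s3 := sub_irr s2 ω.2 (by rw [i3]; exact one_ne_zero)
  refine no_deg_one h s3 ?_ ?_
  · rw [inner_sub_left, inner_sub_left, inner_sub_left, hA1, inner_three_one h hχ, inner_three_one h hψ,
      inner_three_one h hω]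
    norm_num
  · have e1 : A 1 = 10 := by
      rw [hAeq χ hχ]
      simp only [(threes_value h hχ).2.1, apply_one_irr, hF5]
      norm_num
    rw [e1, (threes_value h hχ).2.1, (threes_value h hψ).2.1, (threes_value h hω).2.1]
    norm_num

/-- The centraliser of `u` has order four, and the characters not vanishing at `u` are known. -/
theorem main (h : Gap u) :
    Nat.card (Subgroup.centralizer ({u} : Set G)) = 4 ∧ (threes u).card = 2 ∧
      ∃ F : IrrCharacter G, larges u = {F} ∧ charDegree (F : G → ℂ) = 5 ∧ (F : G → ℂ) u = 1 := by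
  classical
  have hc := cent h
  have hcpos := centralizer_pos u
  have hnn : 0 ≤ ∑ η ∈ larges u, ((charDegree (η : G → ℂ) : ℤ) - 4) :=
    Finset.sum_nonneg fun η hη => by have := large_weight hη; omega
  obtain ⟨χ, hχ⟩ : (threes u).Nonempty := Finset.card_pos.1 (by omega)
  obtain ⟨F, hFl, hF5, hFu, -⟩ := exists_five h hχ
  have h2 := card_threes_le h
  have hge : (1 : ℤ) ≤ ∑ η ∈ larges u, ((charDegree (η : G → ℂ) : ℤ) - 4) :=
    (large_weight hFl).trans
      (Finset.single_le_sum (f := fun η : IrrCharacter G => ((charDegree (η : G → ℂ) : ℤ) - 4))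
        (fun η hη => by have := large_weight hη; omega) hFl)
  refine ⟨by omega, by omega, F, ?_, hF5, hFu⟩
  refine Finset.eq_singleton_iff_unique_mem.2 ⟨hFl, fun η hη => ?_⟩
  by_contra hne
  have hpair := Finset.add_le_sum (f := fun η : IrrCharacter G => ((charDegree (η : G → ℂ) : ℤ) - 4))
    (fun η hη => by have := large_weight hη; omega) hFl hη (Ne.symm hne)
  have := large_weight hη
  simp only [hF5] at hpair
  omega

/-- The sum of the cubes over the degrees. -/
theorem cube_sum (h : Gap u) :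
    ∑ χ : IrrCharacter G, (χ : G → ℂ) u * (χ : G → ℂ) u * (χ : G → ℂ) u / (χ : G → ℂ) 1 = 8 / 15 := by
  classical
  obtain ⟨-, h2, F, hlarge, hF5, hFu⟩ := main h
  let one : IrrCharacter G := oneChar
  have key : ∀ χ : IrrCharacter G, (χ : G → ℂ) u * (χ : G → ℂ) u * (χ : G → ℂ) u / (χ : G → ℂ) 1 =
      (if χ = one then 1 else 0) + (if χ ∈ threes u then -(1 / 3) else 0) + (if χ = F then 1 / 5 else 0) := by
    intro χ
    by_cases h1 : χ = one
    · subst h1
      have hd1 : charDegree ((one : IrrCharacter G) : G → ℂ) = 1 := by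
        have e := apply_one_irr (one : IrrCharacter G)
        rw [show ((one : IrrCharacter G) : G → ℂ) 1 = 1 from rfl] at e
        exact_mod_cast e.symm
      rw [if_pos rfl, if_neg (fun hm => by have := (mem_threes.1 hm).1; omega),
        if_neg (fun e => by rw [← e] at hF5; omega)]
      show (1 : ℂ) * 1 * 1 / 1 = _
      norm_num
    rw [if_neg h1]
    have h1' : (χ : G → ℂ) ≠ fun _ => (1 : ℂ) := fun e => h1 (Subtype.ext e)
    by_cases h0 : (χ : G → ℂ) u = 0
    · rw [if_neg (fun hm => (mem_threes.1 hm).2 h0), if_neg (fun e => by rw [e, hFu] at h0; exact one_ne_zero h0), h0]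
      simp
    have hv := (h.2 χ h1').resolve_right h0
    have := deg_ne_two h χ h1' h0
    have := two_le_deg h χ.2 h1'
    have h4 : charDegree (χ : G → ℂ) ≠ 4 := fun e => h0 (by rw [hv, e]; norm_num)
    rcases Nat.lt_or_ge (charDegree (χ : G → ℂ)) 5 with hlt | hge
    · have h3 : charDegree (χ : G → ℂ) = 3 := by omega
      rw [if_pos (mem_threes.2 ⟨h3, h0⟩), if_neg (fun e => by rw [← e] at hF5; omega), hv, apply_one_irr, h3]
      norm_num
    · have hχF : χ = F := Finset.mem_singleton.1 (hlarge ▸ mem_larges.2 ⟨hge, h0⟩)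
      rw [if_neg (fun hm => by have := (mem_threes.1 hm).1; omega), if_pos hχF, hχF, hFu, apply_one_irr, hF5]
      norm_num
  rw [Finset.sum_congr rfl (fun χ _ => key χ), Finset.sum_add_distrib, Finset.sum_add_distrib, Finset.sum_ite_eq',
    Finset.sum_ite_eq', Finset.sum_ite_mem, Finset.univ_inter, Finset.sum_const, h2]
  simp only [Finset.mem_univ, if_true]
  norm_num

end CfsgLib.ValueGapFour
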