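import Cfsg.Agent.ValueGapFour.Degrees
import Cfsg.Agent.CharBasics.Central
import Cfsg.Agent.CharBasics.Extra

/-!
# The image in a degree three representation has order sixty
-/

set_option autoImplicit false
set_option linter.unusedSectionVars false
set_option linter.style.haveILetI false

namespace CfsgLib.ValueGapFour

open Cfsg CfsgLib.CharBasics
open scoped ComplexConjugate

universe u

variable {G : Type u} [Group G] [Fintype G] {u : G}

theorem conj_value (h : Gap u) (χ : IrrCharacter G) : conj ((χ : G → ℂ) u) = (χ : G → ℂ) u := by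
  by_cases h1 : (χ : G → ℂ) = fun _ => (1 : ℂ)
  · rw [congrFun h1 u, map_one]
  rcases h.2 χ h1 with e | e <;> rw [e] <;> simp [Complex.conj_ofNat]

theorem card_centralizer (h : Gap u) : Nat.card (Subgroup.centralizer ({u} : Set G)) = 4 := by
  haveI := Fintype.ofFinite (IrrCharacter G)
  exact (main h).1

/-- Passing to a quotient. -/
theorem gap_quotient (h : Gap u) (N : Subgroup G) [N.Normal] (hu : u ∉ N) : Gap (QuotientGroup.mk' N u) := by
  haveI := Fintype.ofFinite (G ⧸ N)
  refine ⟨fun e => hu ((QuotientGroup.eq_one_iff u).1 e), fun ψ hψ => ?_⟩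
  let χ : IrrCharacter G := ⟨fun g => (ψ : G ⧸ N → ℂ) (QuotientGroup.mk' N g),
    irr_comp_of_surjective ψ.2 _ (QuotientGroup.mk'_surjective N)⟩
  have hd : charDegree (χ : G → ℂ) = charDegree (ψ : G ⧸ N → ℂ) := by
    have e1 := apply_one_irr χ
    have e2 := apply_one_irr ψ
    rw [show (χ : G → ℂ) 1 = (ψ : G ⧸ N → ℂ) 1 from congrArg (ψ : G ⧸ N → ℂ) (map_one _), e2] at e1
    exact_mod_cast e1.symm
  have := h.2 χ fun e => hψ (funext fun x => by
    obtain ⟨g, rfl⟩ := QuotientGroup.mk'_surjective N x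
    exact congrFun e g)
  rw [hd] at this
  exact this

theorem commute_of_sq {H : Type*} [Group H] {x y : H} (hx : x * x = 1) (hy : y * y = 1)
    (hxy : (x * y) * (x * y) = 1) : x * y = y * x := by
  have hx' : x⁻¹ = x := inv_eq_of_mul_eq_one_right hx
  have hy' : y⁻¹ = y := inv_eq_of_mul_eq_one_right hy
  calc x * y = (x * y)⁻¹ := (inv_eq_of_mul_eq_one_right hxy).symm
    _ = y⁻¹ * x⁻¹ := mul_inv_rev x y
    _ = y * x := by rw [hx', hy']

theorem sq_conj {H : Type*} [Group H] {v w : H} (hv : v * v = 1) (h : IsConj v w) : w * w = 1 := by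
  obtain ⟨g, rfl⟩ := isConj_iff.1 h
  calc g * v * g⁻¹ * (g * v * g⁻¹) = g * (v * v) * g⁻¹ := by group
    _ = 1 := by rw [hv, mul_one, mul_inv_cancel]

/-- When `u` is an involution, the group has order sixty and the class of `u` contains a four-group. -/
theorem card_sixty (h : Gap u) (h2 : u * u = 1) :
    Nat.card G = 60 ∧ ∃ y : G, IsConj u y ∧ IsConj u (y * u) ∧ y * u = u * y ∧ y ≠ u := by
  classical
  haveI := Fintype.ofFinite (IrrCharacter G)
  set C := Subgroup.centralizer ({u} : Set G) with hC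
  have hc4 : Nat.card C = 4 := (main h).1
  have hn4 : 4 ∣ Nat.card G := hc4 ▸ Subgroup.card_subgroup_dvd_card C
  set X := Finset.univ.filter fun x : G => IsConj u (x * u * x⁻¹ * u) with hX
  have hterm : ∀ x : G, (if IsConj u (x * u * x⁻¹ * u) then (4 : ℂ) else 0) =
      ∑ χ : IrrCharacter G, (χ : G → ℂ) u * conj ((χ : G → ℂ) (x * u * x⁻¹ * u)) := by
    intro x
    rw [sum_col u (x * u * x⁻¹ * u), hc4]
    norm_num
  have hsum : (4 : ℂ) * X.card = (Nat.card G : ℂ) * (8 / 15) := by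
    have e1 : (4 : ℂ) * X.card = ∑ x : G, (if IsConj u (x * u * x⁻¹ * u) then (4 : ℂ) else 0) := by
      rw [← Finset.sum_filter, Finset.sum_const, nsmul_eq_mul, mul_comm]
    rw [e1, Finset.sum_congr rfl (fun x _ => hterm x), Finset.sum_comm, ← cube_sum h, Finset.mul_sum]
    refine Finset.sum_congr rfl fun χ _ => ?_
    rw [← Finset.mul_sum, ← map_sum]
    have e2 := sum_conj_apply_mul χ.2 u u
    have hne := apply_one_ne_zero χ.2
    have e3 : ∑ x : G, (χ : G → ℂ) (x * u * x⁻¹ * u) =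
        (Nat.card G : ℂ) * (χ : G → ℂ) u * (χ : G → ℂ) u / (χ : G → ℂ) 1 := by
      rw [eq_div_iff hne, mul_comm, e2]
    rw [e3, map_div₀, map_mul, map_mul, Complex.conj_natCast, conj_value h χ, apply_one_irr, Complex.conj_natCast]
    ring
  have hnum : 15 * X.card = 2 * Nat.card G := by
    have h' : ((15 * X.card : ℕ) : ℂ) = ((2 * Nat.card G : ℕ) : ℂ) := by
      push_cast
      linear_combination (15 / 4 : ℂ) * hsum
    exact_mod_cast h'
  set φ : G → G := fun x => x * u * x⁻¹ with hφ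
  have himg : ∀ x ∈ X, IsConj u (φ x) ∧ IsConj u (φ x * u) ∧ φ x * u = u * φ x ∧ φ x ≠ u := by
    intro x hx
    have hxu : IsConj u (φ x * u) := (Finset.mem_filter.1 hx).2
    have hxc : IsConj u (φ x) := isConj_iff.2 ⟨x, rfl⟩
    refine ⟨hxc, hxu, commute_of_sq (sq_conj h2 hxc) h2 (sq_conj h2 hxu), fun e => h.1 ?_⟩
    rw [e, h2] at hxu
    exact isConj_one_left.1 hxu
  set Cs := ((Finset.univ.filter fun y : G => y ∈ C).erase u).erase 1 with hCs
  have hCscard : Cs.card = 2 := by
    have h1 : (Finset.univ.filter fun y : G => y ∈ C).card = 4 := by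
      rw [← Fintype.card_subtype, ← Nat.card_eq_fintype_card]; exact hc4
    have huC : u ∈ Finset.univ.filter fun y : G => y ∈ C :=
      Finset.mem_filter.2 ⟨Finset.mem_univ _, Subgroup.mem_centralizer_singleton_iff.2 rfl⟩
    rw [hCs, Finset.card_erase_of_mem (Finset.mem_erase.2 ⟨fun e => h.1 e.symm,
      Finset.mem_filter.2 ⟨Finset.mem_univ _, one_mem _⟩⟩), Finset.card_erase_of_mem huC, h1]
  have hsub : X.image φ ⊆ Cs := by
    intro y hy
    obtain ⟨x, hx, rfl⟩ := Finset.mem_image.1 hy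
    obtain ⟨h1, h1', h3, h4⟩ := himg x hx
    refine Finset.mem_erase.2 ⟨fun e => ?_, Finset.mem_erase.2 ⟨h4, Finset.mem_filter.2 ⟨Finset.mem_univ _,
      Subgroup.mem_centralizer_singleton_iff.2 h3⟩⟩⟩
    rw [e] at h1
    exact h.1 (isConj_one_left.1 h1)
  have hfib : ∀ y ∈ X.image φ, (X.filter fun x => φ x = y).card ≤ 4 := by
    intro y hy
    obtain ⟨x0, -, rfl⟩ := Finset.mem_image.1 hy
    have h1 : (Finset.univ.filter fun z : G => z ∈ C).card = 4 := by
      rw [← Fintype.card_subtype, ← Nat.card_eq_fintype_card]; exact hc4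
    rw [← h1]
    refine Finset.card_le_card_of_injOn (fun x => x0⁻¹ * x) (fun x hx => ?_) fun a _ b _ e => mul_left_cancel e
    have hx' : x * u * x⁻¹ = x0 * u * x0⁻¹ := (Finset.mem_filter.1 hx).2
    refine Finset.mem_filter.2 ⟨Finset.mem_univ _, Subgroup.mem_centralizer_singleton_iff.2 ?_⟩
    calc x0⁻¹ * x * u = x0⁻¹ * (x * u * x⁻¹) * x := by group
      _ = u * (x0⁻¹ * x) := by rw [hx']; group
  have hle : X.card ≤ 8 := by
    refine (Finset.card_le_mul_card_image (f := φ) X 4 hfib).trans ?_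
    have := Finset.card_le_card hsub
    omega
  have hpos : 0 < Nat.card G := Nat.card_pos
  refine ⟨by omega, ?_⟩
  obtain ⟨x, hx⟩ : X.Nonempty := Finset.card_pos.1 (by omega)
  exact ⟨φ x, himg x hx⟩

/-- The quotient of order sixty. -/
theorem exists_quotient (h : Gap u) :
    ∃ (K : Subgroup G) (_ : K.Normal), u ∉ K ∧ u * u ∈ K ∧ Nat.card (G ⧸ K) = 60 ∧
      Nat.card (Subgroup.centralizer ({QuotientGroup.mk' K u} : Set (G ⧸ K))) = 4 ∧
      ∃ y : G ⧸ K, IsConj (QuotientGroup.mk' K u) y ∧ IsConj (QuotientGroup.mk' K u) (y * QuotientGroup.mk' K u) ∧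
        y * QuotientGroup.mk' K u = QuotientGroup.mk' K u * y ∧ y ≠ QuotientGroup.mk' K u := by
  haveI := Fintype.ofFinite (IrrCharacter G)
  obtain ⟨-, hb, -⟩ := main h
  obtain ⟨χ, hχ⟩ := Finset.card_pos.1 (by omega : 0 < (threes u).card)
  obtain ⟨-, h1, hv⟩ := threes_value h hχ
  have hc := isCharacter_of_irr χ.2
  haveI hN := charKer_normal hc
  have huK : u ∉ charKer (χ : G → ℂ) hc := fun hm => by
    rw [mem_charKer, hv, h1] at hm
    norm_num at hm
  have huu : u * u ∈ charKer (χ : G → ℂ) hc := by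
    rw [mem_charKer, sq_value h χ (mem_threes.1 hχ).1, hv, h1, map_neg, map_one]
    norm_num
  haveI := Fintype.ofFinite (G ⧸ charKer (χ : G → ℂ) hc)
  have hg := gap_quotient h (charKer (χ : G → ℂ) hc) huK
  obtain ⟨h60, hy⟩ := card_sixty hg (by
    rw [← map_mul]
    exact (QuotientGroup.eq_one_iff _).2 huu)
  exact ⟨_, hN, huK, huu, h60, card_centralizer hg, hy⟩

end CfsgLib.ValueGapFour
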